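import Cfsg.Agent.SymAlt.PresMain

/-! Presentations of the symmetric and alternating groups with few relations, in all degrees. -/

set_option autoImplicit false
set_option linter.unusedVariables false
set_option linter.unusedSectionVars false

namespace Cfsg.Agent.SymAlt

open Equiv Equiv.Perm Subgroup

/-- The output of the constructions: three generators, seven relations, one generator has a
3-cycle among its powers, and the generated group is prescribed by the sign `ε`. -/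
def GoodPres (n : ℕ) (ε : ℤˣ) : Prop :=
  ∃ f : Fin 3 → Perm (Fin n), HasRels f 7 ∧ alternatingGroup (Fin n) ≤ closure (Set.range f) ∧
    (ε = 1 → ∀ i, sign (f i) = 1) ∧ (ε = -1 → ∃ i, sign (f i) = -1) ∧
    ∃ (i : Fin 3) (u v w : Fin n), u ≠ v ∧ w ≠ u ∧ w ≠ v ∧ c3 u v w ∈ zpowers (f i)

theorem goodPres_large (n : ℕ) (hn : 7 ≤ n) (ε : ℤˣ) : GoodPres n ε := by
  obtain ⟨p, hp, h5, h1, h2⟩ := exists_prime_sharp n hn
  have : Fact p.Prime := ⟨hp⟩
  let e : ZMod p ↪ Fin n := ⟨fun i => ⟨i.val, by have := i.val_lt; omega⟩, fun i j h =>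
    ZMod.val_injective p (by simpa using h)⟩
  have he : ∀ j : Fin n, j ∈ Set.range e ↔ (j : ℕ) < p := by
    intro j
    constructor
    · rintro ⟨i, rfl⟩; exact i.val_lt
    · intro h
      exact ⟨(j : ℕ), Fin.ext (ZMod.val_cast_of_lt h)⟩
  have he0 : (e 0 : ℕ) = 0 := ZMod.val_zero
  let t0 : Fin n → Fin n := fun x =>
    if h : 4 ≤ (x : ℕ) ∧ (x : ℕ) + p < n + 2 ∧ (x : ℕ) < p then ⟨x + (p - 2), by omega⟩
    else if p + 2 ≤ (x : ℕ) then ⟨x - (p - 2), by have := x.is_lt; omega⟩ else x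
  have ht0 : ∀ x, (t0 x : ℕ) = if 4 ≤ (x : ℕ) ∧ (x : ℕ) + p < n + 2 ∧ (x : ℕ) < p then x + (p - 2)
      else if p + 2 ≤ (x : ℕ) then x - (p - 2) else x := by
    intro x
    simp only [t0]
    split_ifs <;> rfl
  have hinv : Function.Involutive t0 := by
    intro x
    apply Fin.ext
    have := x.is_lt
    rw [ht0, ht0]
    split_ifs <;> omega
  set τ0 : Perm (Fin n) := hinv.toPerm with hτ0
  have hτ0' : ∀ x, (τ0 x : ℕ) = if 4 ≤ (x : ℕ) ∧ (x : ℕ) + p < n + 2 ∧ (x : ℕ) < p then x + (p - 2)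
      else if p + 2 ≤ (x : ℕ) then x - (p - 2) else x := ht0
  set u : Fin n := ⟨p, by omega⟩ with hu
  set v : Fin n := ⟨p + 1, by omega⟩ with hv
  set w1 : Fin n := ⟨1, by omega⟩ with hw1
  set w2 : Fin n := ⟨2, by omega⟩ with hw2
  set w3 : Fin n := ⟨3, by omega⟩ with hw3
  have huv : (u : ℕ) = p := rfl
  have hvv : (v : ℕ) = p + 1 := rfl
  have hw1v : (w1 : ℕ) = 1 := rfl
  have hw2v : (w2 : ℕ) = 2 := rfl
  have hw3v : (w3 : ℕ) = 3 := rfl
  have hfix : ∀ x : Fin n, ((x : ℕ) < 4 ∨ (x : ℕ) = p ∨ (x : ℕ) = p + 1) → τ0 x = x := by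
    intro x hx
    apply Fin.ext
    rw [hτ0']
    split_ifs <;> omega
  obtain ⟨τ, hs, hττ, hτ1, hτ2, hτ3⟩ : ∃ τ : Perm (Fin n), sign τ = ε ∧ τ * τ = 1 ∧
      (∀ x : Fin n, (x : ℕ) ≠ 2 → (x : ℕ) ≠ 3 → τ x = τ0 x) ∧ (τ w2 : ℕ) < 4 ∧ (τ w3 : ℕ) < 4 := by
    have hτ00 : τ0 * τ0 = 1 := Equiv.ext hinv
    have a2 := hfix w2 (by omega)
    have a3 := hfix w3 (by omega)
    by_cases h : sign τ0 = ε
    · exact ⟨τ0, h, hτ00, fun _ _ _ => rfl, by rw [a2]; omega, by rw [a3]; omega⟩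
    · have h23 : w2 ≠ w3 := by simp [hw2, hw3]
      refine ⟨τ0 * swap w2 w3, ?_, ?_, fun x hx2 hx3 => ?_, ?_, ?_⟩
      · rw [Perm.sign_mul, sign_swap h23]
        rcases Int.units_eq_one_or (sign τ0) with h3 | h3 <;>
          rcases Int.units_eq_one_or ε with h4 | h4 <;> simp_all
      · have : τ0 * swap w2 w3 = swap w2 w3 * τ0 := by
          rw [← mul_inv_eq_iff_eq_mul, ← swap_apply_apply, a2, a3]
        nth_rewrite 2 [this]
        rw [mul_assoc, swap_mul_self_mul, hτ00]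
      · rw [Perm.mul_apply, swap_apply_of_ne_of_ne (fun h => hx2 (by rw [h]))
          (fun h => hx3 (by rw [h]))]
      · rw [Perm.mul_apply, swap_apply_left, a3]; omega
      · rw [Perm.mul_apply, swap_apply_right, a2]; omega
  obtain ⟨f, f1, f2, f3, f4, f5, f6⟩ := hasRels_core h5 e (u := u) (v := v)
    (by simp [hu, hv]) (by rw [he]; omega) (by rw [he]; omega) τ hττ
    (by rw [hτ1 u (by omega) (by omega), hfix u (by omega)])
    (by rw [hτ1 v (by omega) (by omega), hfix v (by omega)])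
    (by rw [hτ1 _ (by omega) (by omega), hfix _ (by omega)])
    (by
      intro j j1 j2 j3
      rw [he] at j3 ⊢
      have a1 : (j : ℕ) ≠ p := fun h => j1 (Fin.ext h)
      have a2 : (j : ℕ) ≠ p + 1 := fun h => j2 (Fin.ext h)
      have := j.is_lt
      rw [hτ1 j (by omega) (by omega), hτ0']
      split_ifs <;> omega)
    w1 w2 w3 (by rw [he]; omega) (by rw [he]; omega) (by rw [he]; omega)
    (by rw [hτ1 _ (by omega) (by omega), hfix _ (by omega)]) (by rw [he]; omega)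
    (by rw [he]; omega) (fun h => by rw [← h] at he0; omega) (fun h => by rw [← h] at he0; omega)
    (fun h => by rw [← h] at he0; omega) (by simp [hw1, hw2]) (by simp [hw1, hw3])
    (by simp [hw2, hw3])
  refine ⟨f, f1, f2, fun h i => ?_, fun h => ⟨2, by rw [f5, hs, h]⟩, 2, u, v, e 0,
    by simp [hu, hv], fun h => by rw [h] at he0; omega, fun h => by rw [h] at he0; omega, ?_⟩
  · fin_cases i
    · exact f3
    · exact f4
    · exact f5.trans (hs.trans h)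
  · rw [← f6]
    exact npow_mem_zpowers _ _

section small

variable {G : Type*} [Group G]

theorem sq_comm {a b : G} (h : (a * b) ^ 2 = 1) : (b * a) ^ 2 = 1 := by
  calc _ = a⁻¹ * (a * b) ^ 2 * a⁻¹⁻¹ := by rw [← conj_pow]; congr 1; group
    _ = 1 := by rw [h]; group

theorem small_rels (z t : G) (η : ℤ) (hη : η = 1 ∨ η = -1)
    (R2 : t ^ 3 * z * (t ^ 3)⁻¹ = z ^ η) (R3 : (z * (t ^ 4 * z * (t ^ 4)⁻¹)) ^ 2 = 1) :
    ((t ^ 4 * z * (t ^ 4)⁻¹) * (t ^ 8 * z * (t ^ 8)⁻¹)) ^ 2 = 1 ∧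
    ((t ^ 8 * z * (t ^ 8)⁻¹) * z) ^ 2 = 1 ∧
    t * z * t⁻¹ = (t ^ 4 * z * (t ^ 4)⁻¹) ^ η ∧
    t * (t ^ 4 * z * (t ^ 4)⁻¹) * t⁻¹ = (t ^ 8 * z * (t ^ 8)⁻¹) ^ η ∧
    t * (t ^ 8 * z * (t ^ 8)⁻¹) * t⁻¹ = z ^ η := by
  have h1 : t ^ 3 * z ^ η * (t ^ 3)⁻¹ = z := by
    rw [← conj_zpow, R2, ← zpow_mul]
    rcases hη with rfl | rfl <;> simp
  have h2 : t ^ 6 * z * (t ^ 6)⁻¹ = z := by
    conv_rhs => rw [← h1, ← R2]
    group
  have h3 : t ^ 12 * z * (t ^ 12)⁻¹ = z := by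
    conv_rhs => rw [← h2, ← h2]
    group
  have h4 : t * z * t⁻¹ = (t ^ 4 * z * (t ^ 4)⁻¹) ^ η := by
    conv_lhs => rw [← h1]
    rw [conj_zpow]
    group
  refine ⟨?_, ?_, h4, ?_, ?_⟩
  · calc _ = (t ^ 4 * (z * (t ^ 4 * z * (t ^ 4)⁻¹)) * (t ^ 4)⁻¹) ^ 2 := by congr 1; group
      _ = 1 := by rw [conj_pow, R3]; group
  · calc _ = (t ^ 8 * (z * (t ^ 4 * z * (t ^ 4)⁻¹)) * (t ^ 8)⁻¹) ^ 2 := by
          congr 1
          conv_lhs => enter [2]; rw [← h3]
          group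
      _ = 1 := by rw [conj_pow, R3]; group
  · calc _ = t ^ 4 * (t * z * t⁻¹) * (t ^ 4)⁻¹ := by group
      _ = _ := by rw [h4, conj_zpow, conj_zpow]; group
  · calc _ = t ^ 8 * (t * z * t⁻¹) * (t ^ 8)⁻¹ := by group
      _ = (t ^ 12 * z * (t ^ 12)⁻¹) ^ η := by rw [h4, conj_zpow, conj_zpow]; group
      _ = _ := by rw [h3]

theorem small_five (π : G →* Perm (Fin 5)) (z t : G) (η : ℤ) (hη : η = 1 ∨ η = -1)
    (R1 : z ^ 3 = 1) (R2 : t ^ 3 * z * (t ^ 3)⁻¹ = z ^ η)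
    (R3 : (z * (t ^ 4 * z * (t ^ 4)⁻¹)) ^ 2 = 1) (hz : π z = c3 3 4 0)
    (ht : π t ^ 4 = c3 0 2 1) :
    ∃ N : Subgroup G, (∀ g ∈ N, π g = 1 → g = 1) ∧ (∀ g ∈ N, sign (π g) = 1) ∧
      (∀ g ∈ N, t * g * t⁻¹ ∈ N) ∧ z ∈ N ∧ t ^ 4 * z * (t ^ 4)⁻¹ ∈ N ∧ t ^ 8 * z * (t ^ 8)⁻¹ ∈ N := by
  obtain ⟨a1, a2, a3, a4, a5⟩ := small_rels z t η hη R2 R3
  let x : Fin 5 → G := ![z, t ^ 4 * z * (t ^ 4)⁻¹, t ^ 8 * z * (t ^ 8)⁻¹, 1, 1]
  have hπ : ∀ i ∈ ({0, 1, 2} : Set (Fin 5)), π (x i) = c3 3 4 i := by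
    rintro i (rfl | rfl | rfl)
    · exact hz
    · change π (t ^ 4 * z * (t ^ 4)⁻¹) = _
      simp only [map_mul, map_inv, map_pow, ht, hz]
      decide
    · change π (t ^ 8 * z * (t ^ 8)⁻¹) = _
      simp only [map_mul, map_inv, map_pow, show 8 = 4 * 2 by norm_num, pow_mul, ht, hz]
      decide
  have m0 : z ∈ closure (x '' {0, 1, 2}) := subset_closure ⟨0, by simp, rfl⟩
  have m1 : t ^ 4 * z * (t ^ 4)⁻¹ ∈ closure (x '' {0, 1, 2}) := subset_closure ⟨1, by simp, rfl⟩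
  have m2 : t ^ 8 * z * (t ^ 8)⁻¹ ∈ closure (x '' {0, 1, 2}) := subset_closure ⟨2, by simp, rfl⟩
  refine ⟨closure (x '' {0, 1, 2}), fun g hg h1 => carmichael π (by decide) x _ (Set.toFinite _)
    (by decide) (by decide) hπ ?_ ?_ hg h1,
    fun g hg => carm_sign π (by decide) x _ (by decide) hπ hg,
    fun g hg => conj_mem_closure t ?_ hg, m0, m1, m2⟩
  · rintro i (rfl | rfl | rfl)
    · exact R1
    · change (t ^ 4 * z * (t ^ 4)⁻¹) ^ 3 = 1
      rw [conj_pow, R1]; group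
    · change (t ^ 8 * z * (t ^ 8)⁻¹) ^ 3 = 1
      rw [conj_pow, R1]; group
  · rintro i (rfl | rfl | rfl) j (rfl | rfl | rfl) hij
    · exact absurd rfl hij
    · exact R3
    · exact sq_comm a2
    · exact sq_comm R3
    · exact absurd rfl hij
    · exact a1
    · exact a2
    · exact sq_comm a1
    · exact absurd rfl hij
  · rintro _ ⟨i, (rfl | rfl | rfl), rfl⟩
    · exact a3 ▸ zpow_mem m1 η
    · exact a4 ▸ zpow_mem m2 η
    · exact a5 ▸ zpow_mem m0 η

theorem small_six (π : G →* Perm (Fin 6)) (z t w : G) (η : ℤ) (hη : η = 1 ∨ η = -1)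
    (R1 : z ^ 3 = 1) (R2 : t ^ 3 * z * (t ^ 3)⁻¹ = z ^ η)
    (R3 : (z * (t ^ 4 * z * (t ^ 4)⁻¹)) ^ 2 = 1) (R5 : w ^ 3 = 1) (R6 : t * w * t⁻¹ = w ^ η)
    (R7 : (w * z) ^ 2 = 1) (hz : π z = c3 3 4 0) (ht : π t ^ 4 = c3 0 2 1) (hw : π w = c3 3 4 5) :
    ∃ N : Subgroup G, (∀ g ∈ N, π g = 1 → g = 1) ∧ (∀ g ∈ N, sign (π g) = 1) ∧
      (∀ g ∈ N, t * g * t⁻¹ ∈ N) ∧ z ∈ N ∧ t ^ 4 * z * (t ^ 4)⁻¹ ∈ N ∧
      t ^ 8 * z * (t ^ 8)⁻¹ ∈ N ∧ w ∈ N := by
  obtain ⟨a1, a2, a3, a4, a5⟩ := small_rels z t η hη R2 R3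
  have b1 : t ^ 2 * w * (t ^ 2)⁻¹ = w := by
    calc _ = t * (t * w * t⁻¹) * t⁻¹ := by rw [pow_two]; group
      _ = w := by
        rw [R6, ← conj_zpow, R6, ← zpow_mul]
        rcases hη with rfl | rfl <;> simp
  have b2 : t ^ 4 * w * (t ^ 4)⁻¹ = w := by
    conv_rhs => rw [← b1, ← b1]
    group
  have b3 : t ^ 8 * w * (t ^ 8)⁻¹ = w := by
    conv_rhs => rw [← b2, ← b2]
    group
  have c1 : (w * (t ^ 4 * z * (t ^ 4)⁻¹)) ^ 2 = 1 := by
    calc _ = (t ^ 4 * (w * z) * (t ^ 4)⁻¹) ^ 2 := by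
          congr 1
          conv_lhs => enter [1]; rw [← b2]
          group
      _ = 1 := by rw [conj_pow, R7]; group
  have c2 : (w * (t ^ 8 * z * (t ^ 8)⁻¹)) ^ 2 = 1 := by
    calc _ = (t ^ 8 * (w * z) * (t ^ 8)⁻¹) ^ 2 := by
          congr 1
          conv_lhs => enter [1]; rw [← b3]
          group
      _ = 1 := by rw [conj_pow, R7]; group
  let x : Fin 6 → G := ![z, t ^ 4 * z * (t ^ 4)⁻¹, t ^ 8 * z * (t ^ 8)⁻¹, 1, 1, w]
  have hπ : ∀ i ∈ ({0, 1, 2, 5} : Set (Fin 6)), π (x i) = c3 3 4 i := by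
    rintro i (rfl | rfl | rfl | rfl)
    · exact hz
    · change π (t ^ 4 * z * (t ^ 4)⁻¹) = _
      simp only [map_mul, map_inv, map_pow, ht, hz]
      decide
    · change π (t ^ 8 * z * (t ^ 8)⁻¹) = _
      simp only [map_mul, map_inv, map_pow, show 8 = 4 * 2 by norm_num, pow_mul, ht, hz]
      decide
    · exact hw
  have m0 : z ∈ closure (x '' {0, 1, 2, 5}) := subset_closure ⟨0, by simp, rfl⟩
  have m1 : t ^ 4 * z * (t ^ 4)⁻¹ ∈ closure (x '' {0, 1, 2, 5}) := subset_closure ⟨1, by simp, rfl⟩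
  have m2 : t ^ 8 * z * (t ^ 8)⁻¹ ∈ closure (x '' {0, 1, 2, 5}) := subset_closure ⟨2, by simp, rfl⟩
  have m5 : w ∈ closure (x '' {0, 1, 2, 5}) := subset_closure ⟨5, by simp, rfl⟩
  refine ⟨closure (x '' {0, 1, 2, 5}), fun g hg h1 => carmichael π (by decide) x _ (Set.toFinite _)
    (by decide) (by decide) hπ ?_ ?_ hg h1,
    fun g hg => carm_sign π (by decide) x _ (by decide) hπ hg,
    fun g hg => conj_mem_closure t ?_ hg, m0, m1, m2, m5⟩
  · rintro i (rfl | rfl | rfl | rfl)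
    · exact R1
    · change (t ^ 4 * z * (t ^ 4)⁻¹) ^ 3 = 1
      rw [conj_pow, R1]; group
    · change (t ^ 8 * z * (t ^ 8)⁻¹) ^ 3 = 1
      rw [conj_pow, R1]; group
    · exact R5
  · rintro i (rfl | rfl | rfl | rfl) j (rfl | rfl | rfl | rfl) hij
    · exact absurd rfl hij
    · exact R3
    · exact sq_comm a2
    · exact sq_comm R7
    · exact sq_comm R3
    · exact absurd rfl hij
    · exact a1
    · exact sq_comm c1
    · exact a2
    · exact sq_comm a1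
    · exact absurd rfl hij
    · exact sq_comm c2
    · exact R7
    · exact c1
    · exact c2
    · exact absurd rfl hij
  · rintro _ ⟨i, (rfl | rfl | rfl | rfl), rfl⟩
    · exact a3 ▸ zpow_mem m1 η
    · exact a4 ▸ zpow_mem m2 η
    · exact a5 ▸ zpow_mem m0 η
    · exact R6 ▸ zpow_mem m5 η

end small

open FreeGroup (of lift_apply_of) in
theorem goodPres_five (ε : ℤˣ) : GoodPres 5 ε := by
  have hgen : ∀ (t : Perm (Fin 5)), t ^ 4 = c3 0 2 1 → alternatingGroup (Fin 5) ≤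
      closure (Set.range (![c3 3 4 0, t, c3 3 4 0] : Fin 3 → Perm (Fin 5))) := by
    intro t ht σ hσ
    have m0 : c3 3 4 0 ∈ closure (Set.range (![c3 3 4 0, t, c3 3 4 0] : Fin 3 → Perm (Fin 5))) :=
      subset_closure ⟨0, rfl⟩
    have m1 : c3 0 2 1 ∈ closure (Set.range (![c3 3 4 0, t, c3 3 4 0] : Fin 3 → Perm (Fin 5))) :=
      ht ▸ pow_mem (subset_closure (show t ∈ Set.range _ from ⟨1, rfl⟩)) 4
    refine mem_of_c3_mem _ (u := 3) (v := 4) (by decide) Set.univ (fun i _ h1 h2 => ?_) σ hσ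
      (fun _ _ _ h => absurd trivial h)
    have m2 := mul_mem (mul_mem m1 m0) (inv_mem m1)
    have m3 := mul_mem (mul_mem m1 m2) (inv_mem m1)
    fin_cases i
    · exact m0
    · convert m2 using 1; decide
    · convert m3 using 1; decide
    · exact absurd rfl h1
    · exact absurd rfl h2
  rcases Int.units_eq_one_or ε with rfl | rfl
  · refine ⟨![c3 3 4 0, c3 0 2 1, c3 3 4 0], ?_, hgen _ (by decide), fun _ => by decide,
      fun h => absurd h (by decide), 0, 3, 4, 0, by decide, by decide, by decide, mem_zpowers _⟩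
    let rels : List (FreeGroup (Fin 3)) :=
      [of 0 ^ 3 * 1⁻¹, of 1 ^ 3 * of 0 * (of 1 ^ 3)⁻¹ * (of 0 ^ (1 : ℤ))⁻¹,
        (of 0 * (of 1 ^ 4 * of 0 * (of 1 ^ 4)⁻¹)) ^ 2 * 1⁻¹,
        of 1 * (of 0 * (of 1 ^ 8 * of 0 * (of 1 ^ 8)⁻¹)⁻¹ * (of 1 ^ 4 * of 0 * (of 1 ^ 4)⁻¹) *
          (of 0)⁻¹)⁻¹, of 2 * (of 0)⁻¹]
    refine (hasRels_of_injective _ rels ?_ ?_).mono (by decide)
    · intro w hw
      simp only [rels, List.mem_cons, List.not_mem_nil, or_false] at hw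
      rcases hw with rfl | rfl | rfl | rfl | rfl <;>
        simp only [map_mul, map_inv, map_pow, map_zpow, map_one, lift_apply_of] <;> decide +kernel
    · intro π hπ g hg
      have hrel : ∀ l r : FreeGroup (Fin 3), l * r⁻¹ ∈ rels →
          PresentedGroup.mk {w | w ∈ rels} l = PresentedGroup.mk {w | w ∈ rels} r :=
        fun l r h => PresentedGroup.mk_eq_mk_of_mul_inv_mem h
      have r1 := hrel _ _ (List.getElem_mem (l := rels) (n := 0) (by decide))
      have r2 := hrel _ _ (List.getElem_mem (l := rels) (n := 1) (by decide))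
      have r3 := hrel _ _ (List.getElem_mem (l := rels) (n := 2) (by decide))
      have r4 := hrel _ _ (List.getElem_mem (l := rels) (n := 3) (by decide))
      have r5 := hrel _ _ (List.getElem_mem (l := rels) (n := 4) (by decide))
      simp only [map_mul, map_inv, map_pow, map_zpow, map_one] at r1 r2 r3 r4 r5
      obtain ⟨N, n1, n2, n3, n4, n5, n6⟩ := small_five π _ _ 1 (Or.inl rfl) r1 r2 r3 (hπ 0)
        ((congrArg (· ^ 4) (hπ 1)).trans (by decide))
      refine n1 g (PresentedGroup.generated_by _ N ?_ g) hg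
      intro j
      fin_cases j
      · exact n4
      · exact (congrArg (· ∈ N) r4).mpr (mul_mem (mul_mem (mul_mem n4 (inv_mem n6)) n5) (inv_mem n4))
      · exact (congrArg (· ∈ N) r5).mpr n4
  · refine ⟨![c3 3 4 0, c3 0 2 1 * swap 3 4, c3 3 4 0], ?_, hgen _ (by decide),
      fun h => absurd h (by decide), fun _ => ⟨1, by decide⟩,
      0, 3, 4, 0, by decide, by decide, by decide, mem_zpowers _⟩
    let rels : List (FreeGroup (Fin 3)) :=
      [of 0 ^ 3 * 1⁻¹, of 1 ^ 3 * of 0 * (of 1 ^ 3)⁻¹ * (of 0 ^ (-1 : ℤ))⁻¹,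
        (of 0 * (of 1 ^ 4 * of 0 * (of 1 ^ 4)⁻¹)) ^ 2 * 1⁻¹,
        of 1 * of 1 * (of 0 * (of 1 ^ 4 * of 0 * (of 1 ^ 4)⁻¹)⁻¹ * (of 1 ^ 8 * of 0 * (of 1 ^ 8)⁻¹) *
          (of 0)⁻¹)⁻¹, of 2 * (of 0)⁻¹]
    refine (hasRels_of_injective _ rels ?_ ?_).mono (by decide)
    · intro w hw
      simp only [rels, List.mem_cons, List.not_mem_nil, or_false] at hw
      rcases hw with rfl | rfl | rfl | rfl | rfl <;>
        simp only [map_mul, map_inv, map_pow, map_zpow, map_one, lift_apply_of] <;> decide +kernel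
    · intro π hπ g hg
      have hrel : ∀ l r : FreeGroup (Fin 3), l * r⁻¹ ∈ rels →
          PresentedGroup.mk {w | w ∈ rels} l = PresentedGroup.mk {w | w ∈ rels} r :=
        fun l r h => PresentedGroup.mk_eq_mk_of_mul_inv_mem h
      have r1 := hrel _ _ (List.getElem_mem (l := rels) (n := 0) (by decide))
      have r2 := hrel _ _ (List.getElem_mem (l := rels) (n := 1) (by decide))
      have r3 := hrel _ _ (List.getElem_mem (l := rels) (n := 2) (by decide))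
      have r4 := hrel _ _ (List.getElem_mem (l := rels) (n := 3) (by decide))
      have r5 := hrel _ _ (List.getElem_mem (l := rels) (n := 4) (by decide))
      simp only [map_mul, map_inv, map_pow, map_zpow, map_one] at r1 r2 r3 r4 r5
      obtain ⟨N, n1, n2, n3, n4, n5, n6⟩ := small_five π _ _ (-1) (Or.inr rfl) r1 r2 r3 (hπ 0)
        ((congrArg (· ^ 4) (hπ 1)).trans (by decide))
      have n7 := (congrArg (· ∈ N) r4).mpr
        (mul_mem (mul_mem (mul_mem n4 (inv_mem n5)) n6) (inv_mem n4))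
      refine inj_of_index_two π N _ n7 n3 ((congrArg sign (hπ 1)).trans (by decide)) n2 n1 _
        (PresentedGroup.closure_range_of _) ?_ g hg
      rintro _ ⟨j, rfl⟩
      fin_cases j
      · exact Or.inl n4
      · exact Or.inr n7
      · exact Or.inl ((congrArg (· ∈ N) r5).mpr n4)

open FreeGroup (of lift_apply_of) in
theorem goodPres_six (ε : ℤˣ) : GoodPres 6 ε := by
  have hgen : ∀ (t : Perm (Fin 6)), t ^ 4 = c3 0 2 1 → alternatingGroup (Fin 6) ≤
      closure (Set.range (![c3 3 4 0, t, c3 3 4 5] : Fin 3 → Perm (Fin 6))) := by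
    intro t ht σ hσ
    have m0 : c3 3 4 0 ∈ closure (Set.range (![c3 3 4 0, t, c3 3 4 5] : Fin 3 → Perm (Fin 6))) :=
      subset_closure ⟨0, rfl⟩
    have m1 : c3 0 2 1 ∈ closure (Set.range (![c3 3 4 0, t, c3 3 4 5] : Fin 3 → Perm (Fin 6))) :=
      ht ▸ pow_mem (subset_closure (show t ∈ Set.range _ from ⟨1, rfl⟩)) 4
    refine mem_of_c3_mem _ (u := 3) (v := 4) (by decide) Set.univ (fun i _ h1 h2 => ?_) σ hσ
      (fun _ _ _ h => absurd trivial h)
    have m2 := mul_mem (mul_mem m1 m0) (inv_mem m1)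
    have m3 := mul_mem (mul_mem m1 m2) (inv_mem m1)
    fin_cases i
    · exact m0
    · convert m2 using 1; decide
    · convert m3 using 1; decide
    · exact absurd rfl h1
    · exact absurd rfl h2
    · exact subset_closure ⟨2, rfl⟩
  rcases Int.units_eq_one_or ε with rfl | rfl
  · refine ⟨![c3 3 4 0, c3 0 2 1, c3 3 4 5], ?_, hgen _ (by decide), fun _ => by decide,
      fun h => absurd h (by decide), 0, 3, 4, 0, by decide, by decide, by decide, mem_zpowers _⟩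
    let rels : List (FreeGroup (Fin 3)) :=
      [of 0 ^ 3 * 1⁻¹, of 1 ^ 3 * of 0 * (of 1 ^ 3)⁻¹ * (of 0 ^ (1 : ℤ))⁻¹,
        (of 0 * (of 1 ^ 4 * of 0 * (of 1 ^ 4)⁻¹)) ^ 2 * 1⁻¹,
        of 1 * (of 0 * (of 1 ^ 8 * of 0 * (of 1 ^ 8)⁻¹)⁻¹ * (of 1 ^ 4 * of 0 * (of 1 ^ 4)⁻¹) *
          (of 0)⁻¹)⁻¹, of 2 ^ 3 * 1⁻¹, of 1 * of 2 * (of 1)⁻¹ * (of 2 ^ (1 : ℤ))⁻¹,
          (of 2 * of 0) ^ 2 * 1⁻¹]
    refine (hasRels_of_injective _ rels ?_ ?_).mono (by decide)
    · intro w hw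
      simp only [rels, List.mem_cons, List.not_mem_nil, or_false] at hw
      rcases hw with rfl | rfl | rfl | rfl | rfl | rfl | rfl <;>
        simp only [map_mul, map_inv, map_pow, map_zpow, map_one, lift_apply_of] <;> decide +kernel
    · intro π hπ g hg
      have hrel : ∀ l r : FreeGroup (Fin 3), l * r⁻¹ ∈ rels →
          PresentedGroup.mk {w | w ∈ rels} l = PresentedGroup.mk {w | w ∈ rels} r :=
        fun l r h => PresentedGroup.mk_eq_mk_of_mul_inv_mem h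
      have r1 := hrel _ _ (List.getElem_mem (l := rels) (n := 0) (by decide))
      have r2 := hrel _ _ (List.getElem_mem (l := rels) (n := 1) (by decide))
      have r3 := hrel _ _ (List.getElem_mem (l := rels) (n := 2) (by decide))
      have r4 := hrel _ _ (List.getElem_mem (l := rels) (n := 3) (by decide))
      have r5 := hrel _ _ (List.getElem_mem (l := rels) (n := 4) (by decide))
      have r6 := hrel _ _ (List.getElem_mem (l := rels) (n := 5) (by decide))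
      have r7 := hrel _ _ (List.getElem_mem (l := rels) (n := 6) (by decide))
      simp only [map_mul, map_inv, map_pow, map_zpow, map_one] at r1 r2 r3 r4 r5 r6 r7
      obtain ⟨N, n1, n2, n3, n4, n5, n6, n8⟩ := small_six π _ _ _ 1 (Or.inl rfl) r1 r2 r3 r5 r6 r7
        (hπ 0) ((congrArg (· ^ 4) (hπ 1)).trans (by decide)) (hπ 2)
      refine n1 g (PresentedGroup.generated_by _ N ?_ g) hg
      intro j
      fin_cases j
      · exact n4
      · exact (congrArg (· ∈ N) r4).mpr (mul_mem (mul_mem (mul_mem n4 (inv_mem n6)) n5) (inv_mem n4))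
      · exact n8
  · refine ⟨![c3 3 4 0, c3 0 2 1 * swap 3 4, c3 3 4 5], ?_, hgen _ (by decide),
      fun h => absurd h (by decide), fun _ => ⟨1, by decide⟩,
      0, 3, 4, 0, by decide, by decide, by decide, mem_zpowers _⟩
    let rels : List (FreeGroup (Fin 3)) :=
      [of 0 ^ 3 * 1⁻¹, of 1 ^ 3 * of 0 * (of 1 ^ 3)⁻¹ * (of 0 ^ (-1 : ℤ))⁻¹,
        (of 0 * (of 1 ^ 4 * of 0 * (of 1 ^ 4)⁻¹)) ^ 2 * 1⁻¹,
        of 1 * of 1 * (of 0 * (of 1 ^ 4 * of 0 * (of 1 ^ 4)⁻¹)⁻¹ * (of 1 ^ 8 * of 0 * (of 1 ^ 8)⁻¹) *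
          (of 0)⁻¹)⁻¹, of 2 ^ 3 * 1⁻¹, of 1 * of 2 * (of 1)⁻¹ * (of 2 ^ (-1 : ℤ))⁻¹,
          (of 2 * of 0) ^ 2 * 1⁻¹]
    refine (hasRels_of_injective _ rels ?_ ?_).mono (by decide)
    · intro w hw
      simp only [rels, List.mem_cons, List.not_mem_nil, or_false] at hw
      rcases hw with rfl | rfl | rfl | rfl | rfl | rfl | rfl <;>
        simp only [map_mul, map_inv, map_pow, map_zpow, map_one, lift_apply_of] <;> decide +kernel
    · intro π hπ g hg
      have hrel : ∀ l r : FreeGroup (Fin 3), l * r⁻¹ ∈ rels →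
          PresentedGroup.mk {w | w ∈ rels} l = PresentedGroup.mk {w | w ∈ rels} r :=
        fun l r h => PresentedGroup.mk_eq_mk_of_mul_inv_mem h
      have r1 := hrel _ _ (List.getElem_mem (l := rels) (n := 0) (by decide))
      have r2 := hrel _ _ (List.getElem_mem (l := rels) (n := 1) (by decide))
      have r3 := hrel _ _ (List.getElem_mem (l := rels) (n := 2) (by decide))
      have r4 := hrel _ _ (List.getElem_mem (l := rels) (n := 3) (by decide))
      have r5 := hrel _ _ (List.getElem_mem (l := rels) (n := 4) (by decide))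
      have r6 := hrel _ _ (List.getElem_mem (l := rels) (n := 5) (by decide))
      have r7 := hrel _ _ (List.getElem_mem (l := rels) (n := 6) (by decide))
      simp only [map_mul, map_inv, map_pow, map_zpow, map_one] at r1 r2 r3 r4 r5 r6 r7
      obtain ⟨N, n1, n2, n3, n4, n5, n6, n8⟩ := small_six π _ _ _ (-1) (Or.inr rfl) r1 r2 r3 r5 r6 r7
        (hπ 0) ((congrArg (· ^ 4) (hπ 1)).trans (by decide)) (hπ 2)
      have n7 := (congrArg (· ∈ N) r4).mpr
        (mul_mem (mul_mem (mul_mem n4 (inv_mem n5)) n6) (inv_mem n4))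
      refine inj_of_index_two π N _ n7 n3 ((congrArg sign (hπ 1)).trans (by decide)) n2 n1 _
        (PresentedGroup.closure_range_of _) ?_ g hg
      rintro _ ⟨j, rfl⟩
      fin_cases j
      · exact Or.inl n4
      · exact Or.inr n7
      · exact Or.inl n8

theorem goodPres (n : ℕ) (hn : 5 ≤ n) (ε : ℤˣ) : GoodPres n ε := by
  by_cases h5 : n = 5
  · subst h5; exact goodPres_five ε
  by_cases h6 : n = 6
  · subst h6; exact goodPres_six ε
  exact goodPres_large n (by omega) ε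

theorem eq_top_of_alt_le_of_odd {α : Type*} [DecidableEq α] [Fintype α] {H : Subgroup (Perm α)}
    (h : alternatingGroup α ≤ H) {g : Perm α} (hg : g ∈ H) (hs : sign g = -1) : H = ⊤ := by
  rw [eq_top_iff]
  intro x _
  rcases Int.units_eq_one_or (sign x) with h1 | h1
  · exact h h1
  · have := H.mul_mem (h (show x * g⁻¹ ∈ alternatingGroup α by
      rw [mem_alternatingGroup, Perm.sign_mul, Perm.sign_inv, h1, hs]; rfl)) hg
    simpa using this

theorem closure_range_alt_eq_top {α X : Type*} [DecidableEq α] [Fintype α]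
    (f : X → alternatingGroup α)
    (h : alternatingGroup α ≤ closure (Set.range ((alternatingGroup α).subtype ∘ f))) :
    closure (Set.range f) = ⊤ := by
  rw [Set.range_comp, ← MonoidHom.map_closure] at h
  rw [eq_top_iff]
  intro x _
  obtain ⟨y, hy, hy'⟩ := h x.2
  rwa [← Subtype.ext hy']

theorem sym_three (n : ℕ) (hn : 5 ≤ n) : ∃ f : Fin 3 → Perm (Fin n), HasRels f 7 ∧
    closure (Set.range f) = ⊤ ∧ ∃ i g, closure (Set.range ![f i, g]) = ⊤ := by
  obtain ⟨f, h1, h2, -, h4, i, u, v, w, h5, h6, h7, h8⟩ := goodPres n hn (-1)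
  obtain ⟨j, hj⟩ := h4 rfl
  obtain ⟨g, hg, hg'⟩ := exists_gen_with_c3 h5 h6 h7 (-1)
  refine ⟨f, h1, eq_top_of_alt_le_of_odd h2 (subset_closure ⟨j, rfl⟩) hj, i, g, ?_⟩
  have m1 : g ∈ closure (Set.range ![f i, g]) := subset_closure ⟨1, rfl⟩
  have m0 : f i ∈ closure (Set.range ![f i, g]) := subset_closure ⟨0, rfl⟩
  exact eq_top_of_alt_le_of_odd (hg' _ (zpowers_le.2 m0 h8) m1) m1 hg

theorem alt_three (n : ℕ) (hn : 5 ≤ n) : ∃ f : Fin 3 → alternatingGroup (Fin n), HasRels f 7 ∧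
    closure (Set.range f) = ⊤ ∧ ∃ i g, closure (Set.range ![f i, g]) = ⊤ := by
  obtain ⟨f, h1, h2, h3, -, i, u, v, w, h5, h6, h7, h8⟩ := goodPres n hn 1
  obtain ⟨g, hg, hg'⟩ := exists_gen_with_c3 h5 h6 h7 1
  refine ⟨fun i => ⟨f i, h3 rfl i⟩,
    HasRels.of_comp (alternatingGroup (Fin n)).subtype (subtype_injective _) h1,
    closure_range_alt_eq_top _ h2, i, ⟨g, hg⟩, closure_range_alt_eq_top _ ?_⟩
  refine hg' _ (zpowers_le.2 ?_ h8) ?_
  · exact subset_closure ⟨0, rfl⟩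
  · exact subset_closure ⟨1, rfl⟩

end Cfsg.Agent.SymAlt
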