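import Cfsg.Agent.SymAlt.Carmichael

/-! The group-theoretic core of a short presentation of the symmetric and alternating groups:
an affine group acting on Carmichael generators, and the gluing of two alternating groups. -/

set_option autoImplicit false
set_option linter.unusedVariables false
set_option linter.unusedSectionVars false

namespace Cfsg.Agent.SymAlt

open Equiv Equiv.Perm Subgroup

variable {G : Type*} [Group G]

theorem glue_stage1 (a b y : G) (p : ℕ) (hp : p % 2 = 1) (s : ℤ)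
    (R1 : a ^ p = b ^ (p - 1) * y ^ 6) (R2 : b * a ^ s * b⁻¹ = a ^ (1 - s))
    (R3 : b * y ^ 2 * b⁻¹ = (y ^ 2)⁻¹) :
    (y ^ 8) ^ 3 = 1 ∧ Commute (a ^ p) (y ^ 8) ∧ y ^ 6 = (b ^ (p - 1)) ^ (2 * s - 1) := by
  have h1 : Commute (b ^ 2) (y ^ 2) := by
    have e : b * (y ^ 2)⁻¹ * b⁻¹ = y ^ 2 := by
      rw [← conj_inv, R3, inv_inv]
    have : b ^ 2 * y ^ 2 * (b ^ 2)⁻¹ = y ^ 2 := by
      calc b ^ 2 * y ^ 2 * (b ^ 2)⁻¹ = b * (b * y ^ 2 * b⁻¹) * b⁻¹ := by rw [pow_two b]; group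
        _ = y ^ 2 := by rw [R3, e]
    rw [Commute, SemiconjBy, ← mul_inv_eq_iff_eq_mul, this]
  have h2 : Commute (b ^ (p - 1)) (y ^ 2) := by
    obtain ⟨k, hk⟩ : ∃ k, p - 1 = 2 * k := ⟨(p - 1) / 2, by omega⟩
    rw [hk, pow_mul]
    exact h1.pow_left k
  have h3 : Commute (b ^ (p - 1)) (y ^ 6) := by
    rw [show 6 = 2 * 3 by norm_num, pow_mul]
    exact h2.pow_right 3
  have h4 : b * y ^ 6 * b⁻¹ = (y ^ 6)⁻¹ := by
    rw [show 6 = 2 * 3 by norm_num, pow_mul, ← conj_pow, R3, inv_pow]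
  have h5 : b * (a ^ p) ^ s * b⁻¹ = (a ^ p) ^ (1 - s) := by
    rw [← zpow_natCast, ← zpow_mul, ← zpow_mul, mul_comm (p : ℤ), mul_comm (p : ℤ), zpow_mul,
      zpow_mul, ← R2, conj_zpow]
  have h6 : b * a ^ p * b⁻¹ = b ^ (p - 1) * (y ^ 6)⁻¹ := by
    rw [R1, ← h4]
    group
  rw [← conj_zpow, h6, R1, h3.inv_right.mul_zpow, h3.mul_zpow] at h5
  have h7 : y ^ 6 = (b ^ (p - 1)) ^ (2 * s - 1) := by
    generalize b ^ (p - 1) = β at h5 ⊢
    generalize y ^ 6 = ζ at h5 ⊢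
    calc ζ = β ^ (s - 1) * (β ^ (1 - s) * ζ ^ (1 - s)) * ζ ^ s := by group
      _ = β ^ (s - 1) * (β ^ s * ζ⁻¹ ^ s) * ζ ^ s := by rw [h5]
      _ = β ^ (2 * s - 1) := by group
  have h8 : b * y ^ 6 * b⁻¹ = y ^ 6 := by
    rw [h7]
    group
  have h9 : y ^ 6 * y ^ 6 = 1 := by
    rw [h8] at h4
    nth_rewrite 1 [h4]
    exact inv_mul_cancel _
  refine ⟨?_, ?_, h7⟩
  · calc (y ^ 8) ^ 3 = (y ^ 6 * y ^ 6) * (y ^ 6 * y ^ 6) := by group
      _ = 1 := by rw [h9, mul_one]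
  · rw [R1]
    apply Commute.mul_left
    · rw [show 8 = 2 * 4 by norm_num, pow_mul]
      exact h2.pow_right 4
    · exact (Commute.refl y).pow_pow 6 8

variable {α : Type*} [DecidableEq α] [Fintype α]

theorem inj_of_index_two (π : G →* Perm α) (N : Subgroup G) (t : G) (ht : t * t ∈ N)
    (hN : ∀ g ∈ N, t * g * t⁻¹ ∈ N) (hs : sign (π t) = -1) (h1 : ∀ g ∈ N, sign (π g) = 1)
    (h2 : ∀ g ∈ N, π g = 1 → g = 1) (S : Set G) (hS : closure S = ⊤)
    (hS' : ∀ g ∈ S, g ∈ N ∨ t * g ∈ N) (g : G) (hg : π g = 1) : g = 1 := by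
  have hN' : ∀ g ∈ N, t⁻¹ * g * t ∈ N := by
    intro g hg
    have := N.mul_mem (N.mul_mem (N.inv_mem ht) (hN g hg)) ht
    convert this using 1
    group
  let M : Subgroup G :=
    { carrier := {g | g ∈ N ∨ t * g ∈ N}
      one_mem' := Or.inl N.one_mem
      mul_mem' := by
        rintro a b (ha | ha) (hb | hb)
        · exact Or.inl (N.mul_mem ha hb)
        · right
          have := N.mul_mem (hN a ha) hb
          convert this using 1
          group
        · right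
          have := N.mul_mem ha hb
          convert this using 1
          group
        · left
          have := N.mul_mem (N.mul_mem (hN' _ ha) (N.inv_mem ht)) hb
          convert this using 1
          group
      inv_mem' := by
        rintro a (ha | ha)
        · exact Or.inl (N.inv_mem ha)
        · right
          have := N.mul_mem (hN _ (N.inv_mem ha)) ht
          convert this using 1
          group }
  have hM : g ∈ M := by
    have : closure S ≤ M := (closure_le _).2 hS'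
    exact this (hS ▸ mem_top g)
  rcases hM with h | h
  · exact h2 g h hg
  · have := h1 _ h
    rw [map_mul, hg, mul_one, hs] at this
    exact absurd this (by decide)

variable {p : ℕ} [Fact p.Prime]

/-- The Carmichael generators obtained by conjugating `z` with the powers of `a`. -/
noncomputable def xw (e : ZMod p ↪ α) (a z : G) (j : α) : G :=
  a ^ (Function.invFun e j).val * z * (a ^ (Function.invFun e j).val)⁻¹

omit [DecidableEq α] [Fintype α] in
theorem map_xw {G' : Type*} [Group G'] (q : G →* G') (e : ZMod p ↪ α) (a z : G) (j : α) :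
    q (xw e a z j) = xw e (q a) (q z) j := by
  simp [xw]

omit [DecidableEq α] [Fintype α] in
theorem map_mem_closure_xw {G' : Type*} [Group G'] (q : G →* G') (e : ZMod p ↪ α) (a z : G)
    (S : Set α) {g : G} (hg : g ∈ closure (xw e a z '' S)) :
    q g ∈ closure (xw e (q a) (q z) '' S) := by
  have : (closure (xw e a z '' S)).map q = closure (xw e (q a) (q z) '' S) := by
    rw [MonoidHom.map_closure, Set.image_image]
    simp only [map_xw]
  rw [← this]
  exact ⟨g, hg, rfl⟩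

omit [DecidableEq α] [Fintype α] in
theorem xw_apply (e : ZMod p ↪ α) (a z : G) (i : ZMod p) :
    xw e a z (e i) = a ^ i.val * z * (a ^ i.val)⁻¹ := by
  rw [xw, Function.leftInverse_invFun e.injective i]

omit [DecidableEq α] [Fintype α] in
theorem xw_intCast (e : ZMod p ↪ α) {a z : G} (h : Commute (a ^ p) z) (k : ℤ) :
    xw e a z (e (k : ZMod p)) = a ^ k * z * (a ^ k)⁻¹ := by
  rw [xw_apply]
  have h1 : ((k : ZMod p).val : ℤ) = k % p := ZMod.val_intCast k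
  have h2 : k = k % p + p * (k / p) := (Int.emod_add_mul_ediv k p).symm
  have h3 : (a ^ p) ^ (k / p) * z * ((a ^ p) ^ (k / p))⁻¹ = z := by
    rw [(h.zpow_left (k / p)).eq, mul_inv_cancel_right]
  rw [← zpow_natCast, h1]
  conv_rhs => rw [h2, zpow_add, zpow_mul, zpow_natCast]
  conv_lhs => rw [← h3]
  group

omit [Fintype α] in
theorem pi_xw (π : G →* Perm α) (e : ZMod p ↪ α) {u v : α} {a z : G}
    (ha : ∀ i, π a (e i) = e (i + 1)) (hau : π a u = u) (hav : π a v = v)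
    (hz : π z = c3 u v (e 0)) : ∀ j ∈ Set.range e, π (xw e a z j) = c3 u v j := by
  rintro _ ⟨i, rfl⟩
  have h1 : ∀ k : ℕ, (π a ^ k) (e 0) = e k := by
    intro k
    induction k with
    | zero => simp
    | succ k ih => rw [pow_succ', Perm.mul_apply, ih, ha, Nat.cast_succ]
  rw [xw_apply, map_mul, map_mul, map_inv, map_pow, hz, conj_c3, h1,
    Perm.pow_apply_eq_self_of_apply_eq_self hau, Perm.pow_apply_eq_self_of_apply_eq_self hav,
    ZMod.natCast_zmod_val]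

omit [DecidableEq α] [Fintype α] in
theorem xw_rels (e : ZMod p ↪ α) {a b z : G} (r : ZMod p) (hr : ∀ x : ZMod p, x ≠ 0 → ∃ j : ℕ, r ^ j = x)
    (s : ℤ) (hs : r * s = 1 - s) (hc : Commute (a ^ p) z) (h3 : z ^ 3 = 1)
    (R2 : b * a ^ s * b⁻¹ = a ^ (1 - s)) (R3 : b * z * b⁻¹ = z⁻¹)
    (R4 : (z * (a * z * a⁻¹)) ^ 2 = 1) :
    (∀ j ∈ Set.range e, xw e a z j ^ 3 = 1) ∧
    (∀ i ∈ Set.range e, ∀ j ∈ Set.range e, i ≠ j → (xw e a z i * xw e a z j) ^ 2 = 1) ∧
    (∀ i : ZMod p, b * xw e a z (e i) * b⁻¹ = (xw e a z (e (r * i)))⁻¹) ∧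
    (∀ (k : ℤ) (i : ZMod p), a ^ k * xw e a z (e i) * (a ^ k)⁻¹ = xw e a z (e (k + i))) := by
  have hs0 : (s : ZMod p) ≠ 0 := by
    intro h
    rw [h] at hs
    simp at hs
  have hb : ∀ i : ZMod p, b * xw e a z (e i) * b⁻¹ = (xw e a z (e (r * i)))⁻¹ := by
    intro i
    obtain ⟨k, hk⟩ := ZMod.intCast_surjective (i / (s : ZMod p))
    have e1 : i = ((s * k : ℤ) : ZMod p) := by
      push_cast
      rw [hk]
      field_simp
    have e2 : r * i = (((1 - s) * k : ℤ) : ZMod p) := by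
      rw [e1]
      push_cast
      rw [← hs]
      ring
    rw [e2, e1, xw_intCast e hc, xw_intCast e hc, zpow_mul, zpow_mul, ← R2, conj_zpow]
    calc b * ((a ^ s) ^ k * z * ((a ^ s) ^ k)⁻¹) * b⁻¹
        = b * (a ^ s) ^ k * b⁻¹ * (b * z * b⁻¹) * (b * (a ^ s) ^ k * b⁻¹)⁻¹ := by group
      _ = _ := by rw [R3]; group
  have ha : ∀ (k : ℤ) (i : ZMod p), a ^ k * xw e a z (e i) * (a ^ k)⁻¹ = xw e a z (e (k + i)) := by
    intro k i
    obtain ⟨l, rfl⟩ := ZMod.intCast_surjective i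
    rw [← Int.cast_add, xw_intCast e hc, xw_intCast e hc]
    group
  have h0 : xw e a z (e 0) = z := by
    have := xw_intCast e hc 0
    simpa using this
  have h1 : ∀ j : ℕ, (z * xw e a z (e (r ^ j))) ^ 2 = 1 := by
    intro j
    induction j with
    | zero =>
      have := xw_intCast e hc 1
      simp only [Int.cast_one, zpow_one] at this
      rw [pow_zero, this, R4]
    | succ j ih =>
      have e1 : (b * (z * xw e a z (e (r ^ j))) * b⁻¹) ^ 2 = 1 := by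
        rw [conj_pow, ih]; group
      have e2 : b * (z * xw e a z (e (r ^ j))) * b⁻¹ =
          (xw e a z (e (r ^ (j + 1))) * z)⁻¹ := by
        rw [mul_inv_rev, pow_succ', ← hb, ← R3]
        group
      rw [e2, inv_pow, inv_eq_one] at e1
      have := congrArg (fun w => z * w * z⁻¹) e1
      simp only [mul_one, mul_inv_cancel] at this
      rw [← this, ← conj_pow]
      congr 1
      group
  refine ⟨?_, ?_, hb, ha⟩
  · rintro _ ⟨i, rfl⟩
    rw [xw_apply, conj_pow, h3]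
    group
  · rintro _ ⟨i, rfl⟩ _ ⟨j, rfl⟩ hij
    have hij' : j - i ≠ 0 := fun h => hij (by rw [sub_eq_zero.1 h])
    obtain ⟨m, hm⟩ := hr _ hij'
    obtain ⟨k, rfl⟩ := ZMod.intCast_surjective i
    have e1 := ha k 0
    have e2 := ha k (r ^ m)
    rw [h0, add_zero] at e1
    rw [hm, add_sub_cancel] at e2
    have e3 := h1 m
    rw [hm] at e3
    rw [← e1, ← e2]
    calc _ = (a ^ k * (z * xw e a z (e (j - k))) * (a ^ k)⁻¹) ^ 2 := by congr 1; group
      _ = 1 := by rw [conj_pow, e3]; group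

/-- `T` can be reached from `w` by iterating `σ`. -/
def Reach (σ : Perm α) (w : α) (T : Set α) : Prop :=
  ∀ P : α → Prop, P w → (∀ x, P x → P (σ x)) → ∀ i ∈ T, P i

omit [Fintype α] in
theorem carm_conj (π : G →* Perm α) {u v : α} (huv : u ≠ v) (x : α → G) (S : Set α)
    (hS : S.Finite) (hu : u ∉ S) (hv : v ∉ S) (hπ : ∀ i ∈ S, π (x i) = c3 u v i)
    (h3 : ∀ i ∈ S, x i ^ 3 = 1) (h2 : ∀ i ∈ S, ∀ j ∈ S, i ≠ j → (x i * x j) ^ 2 = 1)
    {g : G} (hg : g ∈ closure (x '' S)) {j : α} (hj : j ∈ S) :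
    (π g u = u → π g v = v → π g j ∈ S ∧ g * x j * g⁻¹ = x (π g j)) ∧
    (π g u = v → π g v = u → π g j ∈ S ∧ g * x j * g⁻¹ = (x (π g j))⁻¹) := by
  have hju : j ≠ u := fun h => hu (h ▸ hj)
  have hjv : j ≠ v := fun h => hv (h ▸ hj)
  have key : π g j ≠ u → π g j ≠ v → π g j ∈ S := by
    intro h1 h2
    by_contra h3
    have := (π g).injective (carm_fix π x S hπ hg h1 h2 h3)
    exact h3 (this.symm ▸ hj)
  have hx : ∀ i ∈ S, x i ∈ closure (x '' S) := fun i hi => subset_closure ⟨i, hi, rfl⟩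
  constructor
  · intro h4 h5
    have h6 := key (by rw [← h4]; exact (π g).injective.ne hju)
      (by rw [← h5]; exact (π g).injective.ne hjv)
    refine ⟨h6, carmichael_eq π huv x S hS hu hv hπ h3 h2
      (mul_mem (mul_mem hg (hx j hj)) (inv_mem hg)) (hx _ h6) ?_⟩
    rw [map_mul, map_mul, map_inv, hπ j hj, conj_c3, h4, h5, hπ _ h6]
  · intro h4 h5
    have a1 : π g j ≠ u := by rw [← h5]; exact (π g).injective.ne hjv
    have a2 : π g j ≠ v := by rw [← h4]; exact (π g).injective.ne hju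
    have h6 := key a1 a2
    refine ⟨h6, carmichael_eq π huv x S hS hu hv hπ h3 h2
      (mul_mem (mul_mem hg (hx j hj)) (inv_mem hg)) (inv_mem (hx _ h6)) ?_⟩
    rw [map_mul, map_mul, map_inv, hπ j hj, conj_c3, h4, h5, map_inv, hπ _ h6,
      c3_swap_eq_inv huv a1 a2]

/-- Gluing two copies of an alternating group along their common part. -/
theorem glue_two (π : G →* Perm α) {u v : α} (huv : u ≠ v) (x : α → G) (S : Set α)
    (hu : u ∉ S) (hv : v ∉ S) (hπ : ∀ i ∈ S, π (x i) = c3 u v i)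
    (h3 : ∀ i ∈ S, x i ^ 3 = 1) (h2 : ∀ i ∈ S, ∀ j ∈ S, i ≠ j → (x i * x j) ^ 2 = 1)
    (t : G) (htt : t * t = 1) (htu : π t u = u) (htv : π t v = v)
    (hcov : ∀ j, j ≠ u → j ≠ v → j ∉ S → π t j ∈ S)
    (H1 : ∀ i ∈ S, π t i ∈ S → t * x i * t⁻¹ = x (π t i))
    (H2 : ∀ i ∈ S, π t i ∉ S → ∀ j ∈ S, π t j ∉ S → (x i * (t * x j * t⁻¹)) ^ 2 = 1) :
    ∃ N : Subgroup G, (∀ g ∈ N, π g = 1 → g = 1) ∧ (∀ g ∈ N, sign (π g) = 1) ∧
      closure (x '' S) ≤ N ∧ ∀ g ∈ N, t * g * t⁻¹ ∈ N := by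
  classical
  have hττ : ∀ j, π t (π t j) = j := by
    intro j
    rw [← Perm.mul_apply, ← map_mul, htt, map_one, Perm.one_apply]
  let x' : α → G := fun j => if j ∈ S then x j else t * x (π t j) * t⁻¹
  let S' : Set α := {j | j ≠ u ∧ j ≠ v}
  have hx1 : ∀ j ∈ S, x' j = x j := fun j hj => if_pos hj
  have hx2 : ∀ j, j ∉ S → x' j = t * x (π t j) * t⁻¹ := fun j hj => if_neg hj
  have hπ' : ∀ j ∈ S', π (x' j) = c3 u v j := by
    intro j hj
    by_cases h : j ∈ S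
    · rw [hx1 j h, hπ j h]
    · rw [hx2 j h, map_mul, map_mul, map_inv, hπ _ (hcov j hj.1 hj.2 h), conj_c3, htu, htv, hττ]
  have hconj : ∀ j ∈ S', t * x' j * t⁻¹ = x' (π t j) := by
    intro j hj
    by_cases h : j ∈ S
    · by_cases h' : π t j ∈ S
      · rw [hx1 j h, hx1 _ h', H1 j h h']
      · rw [hx1 j h, hx2 _ h', hττ]
    · rw [hx2 j h, hx1 _ (hcov j hj.1 hj.2 h)]
      calc t * (t * x (π t j) * t⁻¹) * t⁻¹ = (t * t) * x (π t j) * (t * t)⁻¹ := by group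
        _ = _ := by rw [htt]; group
  have hmix : ∀ i ∈ S, ∀ j ∈ S', j ∉ S → (x' i * x' j) ^ 2 = 1 := by
    intro i hi j hj hjS
    have hj' := hcov j hj.1 hj.2 hjS
    rw [hx1 i hi, hx2 j hjS]
    by_cases h : π t i ∈ S
    · have e := H1 _ h (by rw [hττ]; exact hi)
      rw [hττ] at e
      rw [← e]
      calc _ = (t * (x (π t i) * x (π t j)) * t⁻¹) ^ 2 := by congr 1; group
        _ = 1 := by
          rw [conj_pow, h2 _ h _ hj' ((π t).injective.ne (fun h => hjS (h ▸ hi)))]; group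
    · exact H2 i hi h _ hj' (by rw [hττ]; exact hjS)
  refine ⟨closure (x' '' S'), fun g hg h1 => carmichael π huv x' S' (Set.toFinite _)
    (fun h => h.1 rfl) (fun h => h.2 rfl) hπ' ?_ ?_ hg h1,
    fun g hg => carm_sign π huv x' S' (fun h => h.1 rfl) hπ' hg, ?_, ?_⟩
  · intro j hj
    by_cases h : j ∈ S
    · rw [hx1 j h, h3 j h]
    · rw [hx2 j h, conj_pow, h3 _ (hcov j hj.1 hj.2 h)]; group
  · intro i hi j hj hij
    by_cases h : i ∈ S
    · by_cases h' : j ∈ S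
      · rw [hx1 i h, hx1 j h', h2 i h j h' hij]
      · exact hmix i h j hj h'
    · by_cases h' : j ∈ S
      · have := hmix j h' i hi h
        calc _ = (x' j)⁻¹ * (x' j * x' i) ^ 2 * (x' j)⁻¹⁻¹ := by rw [← conj_pow]; congr 1; group
          _ = 1 := by rw [this]; group
      · rw [hx2 i h, hx2 j h']
        calc _ = (t * (x (π t i) * x (π t j)) * t⁻¹) ^ 2 := by congr 1; group
          _ = 1 := by
            rw [conj_pow, h2 _ (hcov i hi.1 hi.2 h) _ (hcov j hj.1 hj.2 h')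
              ((π t).injective.ne hij)]; group
  · rw [closure_le]
    rintro _ ⟨j, hj, rfl⟩
    exact subset_closure ⟨j, ⟨fun h => hu (h ▸ hj), fun h => hv (h ▸ hj)⟩, hx1 j hj⟩
  · intro g hg
    induction hg using closure_induction with
    | mem g hg =>
      obtain ⟨j, hj, rfl⟩ := hg
      rw [hconj j hj]
      refine subset_closure ⟨_, ⟨?_, ?_⟩, rfl⟩
      · rw [← htu]; exact (π t).injective.ne hj.1
      · rw [← htv]; exact (π t).injective.ne hj.2
    | one => simp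
    | mul a b _ _ ha hb =>
      have := mul_mem ha hb
      convert this using 1
      group
    | inv a _ ha =>
      have := inv_mem ha
      convert this using 1
      group

theorem conj_mem_closure {S : Set G} {H : Subgroup G} (t : G) (h : ∀ g ∈ S, t * g * t⁻¹ ∈ H)
    {g : G} (hg : g ∈ closure S) : t * g * t⁻¹ ∈ H := by
  induction hg using closure_induction with
  | mem g hg => exact h g hg
  | one => simp
  | mul a b _ _ ha hb =>
    have := mul_mem ha hb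
    convert this using 1
    group
  | inv a _ ha =>
    have := inv_mem ha
    convert this using 1
    group

theorem glue_main (π : G →* Perm α) (e : ZMod p ↪ α) {u v : α} (huv : u ≠ v)
    (hu : u ∉ Set.range e) (hv : v ∉ Set.range e) (hp : p % 2 = 1)
    (r : ZMod p) (hr : ∀ x : ZMod p, x ≠ 0 → ∃ j : ℕ, r ^ j = x) (hr1 : r ≠ 1)
    (s : ℤ) (hs : r * s = 1 - s) (a b y D D' B C E : G)
    (ha : ∀ i, π a (e i) = e (i + 1)) (hau : π a u = u) (hav : π a v = v)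
    (hz : π (y ^ 8) = c3 u v (e 0)) (hb : π b ^ (p - 1) = 1)
    (R1 : a ^ p = b ^ (p - 1) * y ^ 6) (R2 : b * a ^ s * b⁻¹ = a ^ (1 - s))
    (R3 : b * y ^ 2 * b⁻¹ = (y ^ 2)⁻¹) (R4 : (y ^ 8 * (a * y ^ 8 * a⁻¹)) ^ 2 = 1)
    (htu : π (y ^ 3) u = u) (htv : π (y ^ 3) v = v) (ht0 : π (y ^ 3) (e 0) = e 0)
    (hcov : ∀ j, j ≠ u → j ≠ v → j ∉ Set.range e → π (y ^ 3) j ∈ Set.range e)
    (hD : D ∈ closure (xw e a (y ^ 8) '' Set.range e))
    (hD' : D' ∈ closure (xw e a (y ^ 8) '' Set.range e))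
    (hB : B ∈ closure (xw e a (y ^ 8) '' Set.range e))
    (hC : C ∈ closure (xw e a (y ^ 8) '' Set.range e))
    (hE : E ∈ closure (xw e a (y ^ 8) '' Set.range e))
    (hπB : π B = π b) (hπD' : π D' = π (y ^ 3) * π D * (π (y ^ 3))⁻¹)
    (hDuv : (π D u = u ∧ π D v = v) ∨ (π D u = v ∧ π D v = u))
    (hDfix : ∀ j ∈ Set.range e, π (y ^ 3) j ∉ Set.range e → π D j = j)
    (hDr : Reach (π D) (e 0) {j | j ∈ Set.range e ∧ π (y ^ 3) j ∈ Set.range e})
    (R5 : y ^ 3 * D * (y ^ 3)⁻¹ = D' * B⁻¹ * b)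
    (hCu : π C u = u) (hCv : π C v = v)
    (hCr : Reach (π C) (e 0) {j | j ∈ Set.range e ∧ π (y ^ 3) j ∉ Set.range e})
    (hEu : π E u = u) (hEv : π E v = v) (hE0 : π E (e 0) = e 0)
    (w : α) (hw : w ∈ Set.range e) (hw' : π (y ^ 3) w ∈ Set.range e)
    (hEr : Reach (π E) w {j | j ∈ Set.range e ∧ π (y ^ 3) j ∉ Set.range e})
    (R6 : C * (y ^ 3 * E * (y ^ 3)⁻¹) = (y ^ 3 * E * (y ^ 3)⁻¹) * C) :
    ∃ N : Subgroup G, (∀ g ∈ N, π g = 1 → g = 1) ∧ (∀ g ∈ N, sign (π g) = 1) ∧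
      closure (xw e a (y ^ 8) '' Set.range e) ≤ N ∧ (∀ g ∈ N, y ^ 3 * g * (y ^ 3)⁻¹ ∈ N) ∧
      a ∈ N ∧ b ∈ N ∧ y ^ 2 ∈ N ∧ y ^ 6 = 1 := by
  obtain ⟨s1, s2, s3⟩ := glue_stage1 a b y p hp s R1 R2 R3
  have R3' : b * y ^ 8 * b⁻¹ = (y ^ 8)⁻¹ := by
    rw [show 8 = 2 * 4 by norm_num, pow_mul, ← conj_pow, R3, inv_pow]
  obtain ⟨h3, h2, hbx, hax⟩ := xw_rels e r hr s hs s2 s1 R2 R3' R4
  have hπ := pi_xw π e ha hau hav hz
  have hx0 : xw e a (y ^ 8) (e 0) = y ^ 8 := by simp [xw_apply]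
  set x := xw e a (y ^ 8) with hx
  set S := Set.range e with hS
  set H := closure (x '' S) with hH
  set t := y ^ 3 with ht
  have hSf : S.Finite := Set.toFinite _
  have hxH : ∀ i ∈ S, x i ∈ H := fun i hi => subset_closure ⟨i, hi, rfl⟩
  have h0S : e 0 ∈ S := ⟨0, rfl⟩
  have heq : ∀ g ∈ H, ∀ h ∈ H, π g = π h → g = h := fun g hg h hh =>
    carmichael_eq π huv x S hSf hu hv hπ h3 h2 hg hh
  have hcj := fun (g : G) (hg : g ∈ H) (j : α) (hj : j ∈ S) =>
    carm_conj π huv x S hSf hu hv hπ h3 h2 hg hj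
  have hbH : ∀ g ∈ H, b * g * b⁻¹ ∈ H := by
    intro g hg
    refine conj_mem_closure b ?_ hg
    rintro _ ⟨_, ⟨i, rfl⟩, rfl⟩
    rw [hbx]
    exact inv_mem (hxH _ ⟨_, rfl⟩)
  have haH : ∀ k : ℤ, ∀ g ∈ H, a ^ k * g * (a ^ k)⁻¹ ∈ H := by
    intro k g hg
    refine conj_mem_closure (a ^ k) ?_ hg
    rintro _ ⟨_, ⟨i, rfl⟩, rfl⟩
    rw [hax]
    exact hxH _ ⟨_, rfl⟩
  have hb' : ∀ g ∈ H, B⁻¹ * b * g * (B⁻¹ * b)⁻¹ = g := by
    intro g hg
    have := heq _ (hbH g hg) _ (mul_mem (mul_mem hB hg) (inv_mem hB)) (by simp [hπB])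
    calc B⁻¹ * b * g * (B⁻¹ * b)⁻¹ = B⁻¹ * (b * g * b⁻¹) * B := by group
      _ = g := by rw [this]; group
  have ht8 : t * x (e 0) * t⁻¹ = x (e 0) := by
    rw [hx0, ht]; group
  have hK : ∀ j ∈ S, π t j ∈ S → t * x j * t⁻¹ ∈ H := by
    intro j hj hj'
    refine (hDr (fun j => j ∈ S ∧ t * x j * t⁻¹ ∈ H) ⟨h0S, ht8.symm ▸ hxH _ h0S⟩ ?_ j ⟨hj, hj'⟩).2
    rintro i ⟨hi, hi'⟩
    have e1 : t * (D * x i * D⁻¹) * t⁻¹ ∈ H := by
      have : t * (D * x i * D⁻¹) * t⁻¹ =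
          D' * (B⁻¹ * b * (t * x i * t⁻¹) * (B⁻¹ * b)⁻¹) * D'⁻¹ := by
        calc t * (D * x i * D⁻¹) * t⁻¹
            = (t * D * t⁻¹) * (t * x i * t⁻¹) * (t * D * t⁻¹)⁻¹ := by group
          _ = _ := by rw [R5]; group
      rw [this, hb' _ hi']
      exact mul_mem (mul_mem hD' hi') (inv_mem hD')
    rcases hDuv with h | h
    · obtain ⟨e2, e3⟩ := (hcj D hD i hi).1 h.1 h.2
      exact ⟨e2, e3 ▸ e1⟩
    · obtain ⟨e2, e3⟩ := (hcj D hD i hi).2 h.1 h.2
      refine ⟨e2, ?_⟩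
      rw [e3] at e1
      have := inv_mem e1
      convert this using 1
      group
  have H1 : ∀ i ∈ S, π t i ∈ S → t * x i * t⁻¹ = x (π t i) := by
    intro i hi hi'
    apply heq _ (hK i hi hi') _ (hxH _ hi')
    rw [map_mul, map_mul, map_inv, hπ i hi, conj_c3, htu, htv, hπ _ hi']
  have hbB : b = B := by
    obtain ⟨D0, hD0, hD0'⟩ := carm_surj π huv x {j | j ∈ S ∧ π t j ∈ S} (fun i hi => hπ i hi.1)
      (π D) (carm_sign π huv x S hu hπ hD) (by
        intro j h1 h2 h3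
        by_cases hj : j ∈ S
        · exact hDfix j hj (fun h => h3 ⟨hj, h⟩)
        · exact carm_fix π x S hπ hD h1 h2 hj)
    have e1 : D0 = D := heq _ (closure_mono (Set.image_mono (fun j hj => hj.1)) hD0) _ hD hD0'
    rw [e1] at hD0
    have e2 : t * D * t⁻¹ ∈ H := by
      refine conj_mem_closure t ?_ hD0
      rintro _ ⟨j, hj, rfl⟩
      exact hK j hj.1 hj.2
    have e3 : t * D * t⁻¹ = D' := heq _ e2 _ hD' (by rw [hπD']; simp)
    rw [e3, mul_assoc, left_eq_mul, inv_mul_eq_one] at R5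
    exact R5.symm
  have hbH' : b ∈ H := hbB ▸ hB
  have hβ : b ^ (p - 1) = 1 := heq _ (pow_mem hbH' _) _ H.one_mem (by rw [map_pow, hb, map_one])
  have hy6 : y ^ 6 = 1 := by rw [s3, hβ, one_zpow]
  have hap : a ^ p = 1 := by rw [R1, hβ, hy6, one_mul]
  have haH' : a ∈ H := by
    have e1 : a ^ (1 - 2 * s) ∈ H := by
      have := mul_mem (haH (-s) b hbH') (inv_mem hbH')
      convert this using 1
      calc a ^ (1 - 2 * s) = a ^ (-s) * a ^ (1 - s) := by group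
        _ = _ := by rw [← R2]; group
    have e2 : ((1 - 2 * s : ℤ) : ZMod p) ≠ 0 := by
      intro h
      push_cast at h
      have h4 : (s : ZMod p) ≠ 0 := by
        intro h5
        rw [h5] at hs
        simp at hs
      apply hr1
      apply mul_right_cancel₀ h4
      rw [hs]
      linear_combination h
    obtain ⟨k, hk⟩ := ZMod.intCast_surjective (((1 - 2 * s : ℤ) : ZMod p)⁻¹)
    have e3 : (((1 - 2 * s) * k - 1 : ℤ) : ZMod p) = 0 := by
      rw [Int.cast_sub, Int.cast_mul, hk, mul_inv_cancel₀ e2]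
      simp
    rw [ZMod.intCast_zmod_eq_zero_iff_dvd] at e3
    obtain ⟨m, hm⟩ := e3
    have e4 := zpow_mem e1 k
    rw [← zpow_mul, show (1 - 2 * s) * k = 1 + p * m by linear_combination hm, zpow_add, zpow_mul,
      zpow_natCast, hap, one_zpow, mul_one, zpow_one] at e4
    exact e4
  have hcomm : ∀ i ∈ S, π t i ∉ S → Commute (x i) (t * E * t⁻¹) := by
    intro i hi hi'
    refine (hCr (fun j => j ∈ S ∧ Commute (x j) (t * E * t⁻¹)) ⟨h0S, ?_⟩ ?_ i ⟨hi, hi'⟩).2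
    · have e1 := ((hcj E hE _ h0S).1 hEu hEv).2
      rw [hE0, mul_inv_eq_iff_eq_mul] at e1
      rw [← ht8]
      have : Commute (x (e 0)) E := e1.symm
      exact this.conj t
    · rintro j ⟨hj, hj'⟩
      obtain ⟨e2, e3⟩ := (hcj C hC j hj).1 hCu hCv
      refine ⟨e2, ?_⟩
      rw [← e3]
      have R6' : Commute C (t * E * t⁻¹) := R6
      exact (R6'.mul_left hj').mul_left R6'.inv_left
  have H2 : ∀ i ∈ S, π t i ∉ S → ∀ j ∈ S, π t j ∉ S → (x i * (t * x j * t⁻¹)) ^ 2 = 1 := by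
    intro i hi hi' j hj hj'
    have hττ : ∀ j, π t (π t j) = j := by
      intro j
      rw [← Perm.mul_apply, ← map_mul, ht, ← pow_add, hy6, map_one, Perm.one_apply]
    refine (hEr (fun j => j ∈ S ∧ (x i * (t * x j * t⁻¹)) ^ 2 = 1) ⟨hw, ?_⟩ ?_ j ⟨hj, hj'⟩).2
    · rw [H1 w hw hw']
      refine h2 i hi _ hw' (fun h => hi' ?_)
      rw [h, hττ]
      exact hw
    · rintro k ⟨hk, hk'⟩
      obtain ⟨e2, e3⟩ := (hcj E hE k hk).1 hEu hEv
      refine ⟨e2, ?_⟩
      rw [← e3]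
      have e4 := (hcomm i hi hi').eq
      calc _ = ((t * E * t⁻¹) * (x i * (t * x k * t⁻¹)) * (t * E * t⁻¹)⁻¹) ^ 2 := by
            congr 1
            rw [← mul_assoc (t * E * t⁻¹), ← e4]
            group
        _ = 1 := by rw [conj_pow, hk']; group
  obtain ⟨N, n1, n2, n3, n4⟩ := glue_two π huv x S hu hv hπ h3 h2 t
    (by rw [ht, ← pow_add, hy6]) htu htv hcov H1 H2
  refine ⟨N, n1, n2, n3, n4, n3 haH', n3 hbH', n3 ?_, hy6⟩
  have : y ^ 2 = y ^ 8 := by
    rw [show 8 = 2 + 6 by norm_num, pow_add, hy6, mul_one]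
  rw [this, ← hx0]
  exact hxH _ h0S

end Cfsg.Agent.SymAlt
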