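import Cfsg.Agent.SymAlt.Glue
import Cfsg.Agent.SymAlt.Pres
import Mathlib.GroupTheory.Perm.ViaEmbedding

/-! A presentation of the symmetric and alternating groups on three generators with seven
relations, for degree at least 7. -/

set_option autoImplicit false
set_option linter.unusedVariables false
set_option linter.unusedSectionVars false

namespace Cfsg.Agent.SymAlt

open Equiv Equiv.Perm Subgroup

variable {α : Type*} [DecidableEq α] [Fintype α]

theorem exists_reach (T : Set α) (w : α) :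
    ∃ f : Perm α, (∀ x, x ∉ T → x ≠ w → f x = x) ∧ Reach f w T := by
  classical
  obtain ⟨f, hf, hf'⟩ := Finset.exists_cycleOn (insert w T.toFinset)
  refine ⟨f, fun x h1 h2 => ?_, fun P h1 h2 i hi => ?_⟩
  · by_contra h
    have := hf' (mem_support.2 h)
    simp [h1, h2] at this
  · obtain ⟨k, -, rfl⟩ := hf.exists_pow_eq (a := w) (b := i) (by simp) (by simp [hi])
    clear hi
    induction k with
    | zero => exact h1
    | succ k ih => rw [pow_succ', Perm.mul_apply]; exact h2 _ ih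

theorem exists_reach_even (T : Set α) (w w' : α) (h1 : w' ∉ T) (h2 : w' ≠ w) :
    ∃ f : Perm α, sign f = 1 ∧ (∀ x, x ∉ T → x ≠ w → x ≠ w' → f x = x) ∧ Reach f w T := by
  obtain ⟨f, hf, hf'⟩ := exists_reach T w
  rcases Int.units_eq_one_or (sign f) with h | h
  · exact ⟨f, h, fun x a b _ => hf x a b, hf'⟩
  · refine ⟨f * swap w w', by rw [Perm.sign_mul, h, sign_swap h2.symm]; rfl, fun x a b c => ?_,
      fun P p1 p2 i hi => ?_⟩
    · rw [Perm.mul_apply, swap_apply_of_ne_of_ne b c, hf x a b]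
    · have hw' := hf w' h1 h2
      refine (hf' (fun x => P x ∧ x ≠ w') ⟨p1, h2.symm⟩ ?_ i hi).1
      rintro x ⟨hx, hx'⟩
      refine ⟨?_, by rw [← hw']; exact f.injective.ne hx'⟩
      by_cases hxw : x = w
      · subst hxw
        have := p2 _ (p2 _ hx)
        rwa [Perm.mul_apply f _ x, swap_apply_left, hw', Perm.mul_apply, swap_apply_right] at this
      · have := p2 _ hx
        rwa [Perm.mul_apply, swap_apply_of_ne_of_ne hxw hx'] at this

theorem exists_reach_uv (T : Set α) (w u v : α) (hu : u ∉ T) (hv : v ∉ T) (huw : u ≠ w)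
    (hvw : v ≠ w) (huv : u ≠ v) (ε : ℤˣ) :
    ∃ f : Perm α, sign f = ε ∧ (∀ x, x ∉ T → x ≠ w → x ≠ u → x ≠ v → f x = x) ∧
      ((f u = u ∧ f v = v) ∨ (f u = v ∧ f v = u)) ∧ Reach f w T := by
  obtain ⟨f, hf, hf'⟩ := exists_reach T w
  have h1 := hf u hu huw
  have h2 := hf v hv hvw
  by_cases h : sign f = ε
  · exact ⟨f, h, fun x a b _ _ => hf x a b, Or.inl ⟨h1, h2⟩, hf'⟩
  · refine ⟨f * swap u v, ?_, fun x a b c d => ?_, Or.inr ⟨?_, ?_⟩, fun P p1 p2 i hi => ?_⟩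
    · rw [Perm.sign_mul, sign_swap huv]
      rcases Int.units_eq_one_or (sign f) with h3 | h3 <;>
        rcases Int.units_eq_one_or ε with h4 | h4 <;> simp_all
    · rw [Perm.mul_apply, swap_apply_of_ne_of_ne c d, hf x a b]
    · rw [Perm.mul_apply, swap_apply_left, h2]
    · rw [Perm.mul_apply, swap_apply_right, h1]
    · refine (hf' (fun x => P x ∧ x ≠ u ∧ x ≠ v) ⟨p1, huw.symm, hvw.symm⟩ ?_ i hi).1
      rintro x ⟨hx, hx1, hx2⟩
      refine ⟨?_, by rw [← h1]; exact f.injective.ne hx1, by rw [← h2]; exact f.injective.ne hx2⟩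
      have := p2 _ hx
      rwa [Perm.mul_apply, swap_apply_of_ne_of_ne hx1 hx2] at this

/-- A 3-cycle together with a suitable permutation of prescribed sign generates a group
containing the alternating group. -/
theorem exists_gen_with_c3 {u v w : α} (huv : u ≠ v) (hwu : w ≠ u) (hwv : w ≠ v) (ε : ℤˣ) :
    ∃ g : Perm α, sign g = ε ∧
      ∀ H : Subgroup (Perm α), c3 u v w ∈ H → g ∈ H → alternatingGroup α ≤ H := by
  obtain ⟨g, hg, -, h2, h3⟩ := exists_reach_uv {x | x ≠ u ∧ x ≠ v} w u v (fun h => h.1 rfl)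
    (fun h => h.2 rfl) hwu.symm hwv.symm huv ε
  refine ⟨g, hg, fun H hz hgH σ hσ => ?_⟩
  refine mem_of_c3_mem H huv Set.univ (fun i _ h4 h5 => ?_) σ hσ (fun _ _ _ h => absurd trivial h)
  refine (h3 (fun x => (x ≠ u ∧ x ≠ v) ∧ c3 u v x ∈ H) ⟨⟨hwu, hwv⟩, hz⟩ ?_ i ⟨h4, h5⟩).2
  rintro x ⟨⟨hx1, hx2⟩, hx⟩
  have := H.mul_mem (H.mul_mem hgH hx) (H.inv_mem hgH)
  rw [conj_c3] at this
  rcases h2 with ⟨h6, h7⟩ | ⟨h6, h7⟩
  · rw [h6, h7] at this
    exact ⟨⟨by rw [← h6]; exact g.injective.ne hx1, by rw [← h7]; exact g.injective.ne hx2⟩, this⟩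
  · have a1 : g x ≠ u := by rw [← h7]; exact g.injective.ne hx2
    have a2 : g x ≠ v := by rw [← h6]; exact g.injective.ne hx1
    rw [h6, h7, c3_swap_eq_inv huv a1 a2, inv_mem_iff] at this
    exact ⟨⟨a1, a2⟩, this⟩

theorem sign_mulLeft_primitive {p : ℕ} [Fact p.Prime] (hp : p % 2 = 1) (r : ZMod p) (hr0 : r ≠ 0)
    (hr : ∀ x : ZMod p, x ≠ 0 → ∃ j : ℕ, r ^ j = x) (hr1 : r ≠ 1) :
    sign (Equiv.mulLeft₀ r hr0) = -1 := by
  have h1 : ∀ x : ZMod p, Equiv.mulLeft₀ r hr0 x ≠ x ↔ x ≠ 0 := by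
    intro x
    simp only [mulLeft₀_apply, ne_eq]
    rw [not_iff_not]
    constructor
    · intro h
      by_contra hx
      exact hr1 (mul_right_cancel₀ hx (by rw [h, one_mul]))
    · rintro rfl; simp
  have h2 : ∀ j : ℕ, ∀ x, (Equiv.mulLeft₀ r hr0 ^ j) x = r ^ j * x := by
    intro j x
    induction j with
    | zero => simp
    | succ j ih => rw [pow_succ', Perm.mul_apply, ih, mulLeft₀_apply, pow_succ', mul_assoc]
  have h3 : IsCycle (Equiv.mulLeft₀ r hr0) := by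
    refine ⟨1, (h1 1).2 one_ne_zero, fun y hy => ?_⟩
    obtain ⟨j, hj⟩ := hr y ((h1 y).1 hy)
    exact ⟨j, by rw [zpow_natCast, h2, hj, mul_one]⟩
  have h4 : (Equiv.mulLeft₀ r hr0).support = Finset.univ.erase 0 := by
    ext x
    rw [mem_support, h1]
    simp
  rw [h3.sign, h4, Finset.card_erase_of_mem (Finset.mem_univ _), Finset.card_univ, ZMod.card,
    Even.neg_one_pow (by rw [Nat.even_iff]; omega)]

theorem exists_primitive {p : ℕ} [Fact p.Prime] (hp : 5 ≤ p) :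
    ∃ r : ZMod p, r ≠ 0 ∧ r ≠ 1 ∧ (∀ x : ZMod p, x ≠ 0 → ∃ j : ℕ, r ^ j = x) ∧
      ∃ s : ℤ, r * s = 1 - s := by
  obtain ⟨g, hg⟩ := IsCyclic.exists_monoid_generator (α := (ZMod p)ˣ)
  have hr : ∀ x : ZMod p, x ≠ 0 → ∃ j : ℕ, (g : ZMod p) ^ j = x := by
    intro x hx
    obtain ⟨j, hj⟩ := hg (Units.mk0 x hx)
    exact ⟨j, by simpa using congrArg Units.val hj⟩
  have hne : ∀ k : ℕ, 0 < k → k < 5 → (k : ZMod p) ≠ 0 := by
    intro k h1 h2 h
    rw [ZMod.natCast_eq_zero_iff] at h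
    have := Nat.le_of_dvd h1 h
    omega
  obtain ⟨j, hj⟩ := hr 2 (by exact_mod_cast hne 2 (by norm_num) (by norm_num))
  have hsq : (g : ZMod p) ^ 2 ≠ 1 := by
    intro h
    have : (2 : ZMod p) ^ 2 = 1 := by rw [← hj, ← pow_mul, mul_comm, pow_mul, h, one_pow]
    apply hne 3 (by norm_num) (by norm_num)
    push_cast
    linear_combination this
  have h1 : (g : ZMod p) + 1 ≠ 0 := by
    intro h
    apply hsq
    rw [eq_neg_of_add_eq_zero_left h]
    simp
  obtain ⟨s, hs⟩ := ZMod.intCast_surjective ((g : ZMod p) + 1)⁻¹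
  refine ⟨g, g.ne_zero, fun h => hsq (by rw [h, one_pow]), hr, s, ?_⟩
  rw [hs]
  field_simp
  ring

theorem hasRels_core {p : ℕ} [Fact p.Prime] (hp5 : 5 ≤ p) (e : ZMod p ↪ α) {u v : α}
    (huv : u ≠ v) (hu : u ∉ Set.range e) (hv : v ∉ Set.range e) (τ : Perm α) (hττ : τ * τ = 1)
    (htu : τ u = u) (htv : τ v = v) (ht0 : τ (e 0) = e 0)
    (hcov : ∀ j, j ≠ u → j ≠ v → j ∉ Set.range e → τ j ∈ Set.range e)
    (w1 w2 w3 : α) (hw1 : w1 ∈ Set.range e) (hw2 : w2 ∈ Set.range e) (hw3 : w3 ∈ Set.range e)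
    (ht1 : τ w1 = w1) (ht2 : τ w2 ∈ Set.range e) (ht3 : τ w3 ∈ Set.range e)
    (h10 : w1 ≠ e 0) (h20 : w2 ≠ e 0) (h30 : w3 ≠ e 0) (h12 : w1 ≠ w2) (h13 : w1 ≠ w3)
    (h23 : w2 ≠ w3) :
    ∃ f : Fin 3 → Perm α, HasRels f 7 ∧ alternatingGroup α ≤ closure (Set.range f) ∧
      sign (f 0) = 1 ∧ sign (f 1) = 1 ∧ sign (f 2) = sign τ ∧ f 2 ^ 2 = c3 u v (e 0) := by
  classical
  have hpp : p.Prime := Fact.out
  have hp : p % 2 = 1 := by
    rcases hpp.eq_two_or_odd with h | h <;> omega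
  obtain ⟨r, hr0, hr1, hr, s, hs⟩ := exists_primitive hp5
  have h0S : e 0 ∈ Set.range e := ⟨0, rfl⟩
  have hne : ∀ j ∈ Set.range e, j ≠ u ∧ j ≠ v :=
    fun j hj => ⟨fun h => hu (h ▸ hj), fun h => hv (h ▸ hj)⟩
  have hττ' : ∀ j, τ (τ j) = j := fun j => by rw [← Perm.mul_apply, hττ, Perm.one_apply]
  have hτinv : τ⁻¹ = τ := inv_eq_of_mul_eq_one_right hττ
  set z := c3 u v (e 0) with hz
  have hz3 : z ^ 3 = 1 := c3_cube huv (hne _ h0S).1 (hne _ h0S).2
  have hzτ : Commute τ z := by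
    rw [Commute, SemiconjBy, ← mul_inv_eq_iff_eq_mul, hz, conj_c3, htu, htv, ht0]
  set Φ := viaEmbeddingHom (α := ZMod p) e with hΦ
  have hΦ1 : ∀ σ i, Φ σ (e i) = e (σ i) := fun σ i => viaEmbedding_apply σ e i
  have hΦ2 : ∀ σ j, j ∉ Set.range e → Φ σ j = j := fun σ j hj => viaEmbedding_apply_of_notMem σ e j hj
  have hΦs : ∀ σ, sign (Φ σ) = sign σ := fun σ => by
    rw [hΦ, viaEmbeddingHom_apply, viaEmbedding]
    convert sign_extendDomain σ (ofInjective e.1 e.2)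
  have hΦc : ∀ σ, Commute (Φ σ) (swap u v) := fun σ => by
    rw [Commute, SemiconjBy, ← mul_inv_eq_iff_eq_mul, ← swap_apply_apply, hΦ2 σ u hu, hΦ2 σ v hv]
  set a0 := Φ (Equiv.addRight 1) with ha0
  set m0 := Equiv.mulLeft₀ r hr0 with hm0
  set b0 := Φ m0 * swap u v with hb0
  set y0 := τ * z ^ 2 with hy0
  have hy2 : y0 ^ 2 = z := by
    rw [hy0, (hzτ.pow_right 2).mul_pow, pow_two τ, hττ, one_mul, ← pow_mul,
      show 2 * 2 = 3 + 1 by norm_num, pow_add, hz3, one_mul, pow_one]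
  have hy3 : y0 ^ 3 = τ := by
    rw [hy0, (hzτ.pow_right 2).mul_pow, pow_three τ, hττ, mul_one, ← pow_mul, mul_comm 2 3,
      pow_mul, hz3, one_pow, mul_one]
  have hy6 : y0 ^ 6 = 1 := by rw [show 6 = 2 * 3 by norm_num, pow_mul, hy2, hz3]
  have hy8 : y0 ^ 8 = z := by rw [show 8 = 6 + 2 by norm_num, pow_add, hy6, one_mul, hy2]
  have hap : a0 ^ p = 1 := by
    rw [ha0, ← map_pow, Equiv.nsmul_addRight]
    simp
  have hbp : b0 ^ (p - 1) = 1 := by
    have e1 : m0 ^ (p - 1) = 1 := by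
      have h2 : ∀ j : ℕ, ∀ x, (m0 ^ j) x = r ^ j * x := by
        intro j x
        induction j with
        | zero => simp
        | succ j ih => rw [pow_succ', Perm.mul_apply, ih, hm0, mulLeft₀_apply, pow_succ', mul_assoc]
      ext x
      rw [h2, ZMod.pow_card_sub_one_eq_one hr0, one_mul, Perm.one_apply]
    obtain ⟨k, hk⟩ : ∃ k, p - 1 = 2 * k := ⟨(p - 1) / 2, by omega⟩
    rw [hb0, (hΦc m0).mul_pow, ← map_pow, e1, map_one, one_mul, hk, pow_mul, pow_two,
      swap_mul_self, one_pow]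
  have hR2 : b0 * a0 ^ s * b0⁻¹ = a0 ^ (1 - s) := by
    have e1 : m0 * Equiv.addRight 1 ^ s * m0⁻¹ = Equiv.addRight 1 ^ (1 - s) := by
      rw [mul_inv_eq_iff_eq_mul, Equiv.zsmul_addRight, Equiv.zsmul_addRight]
      ext x
      simp only [hm0, Perm.mul_apply, mulLeft₀_apply, Equiv.coe_addRight, zsmul_eq_mul, mul_one]
      push_cast
      rw [← hs]
      ring
    rw [ha0, ← map_zpow, ← map_zpow, ← e1, map_mul, map_mul, map_inv, hb0, mul_assoc (Φ m0),
      ← (hΦc _).eq]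
    group
  have hb0u : b0 u = v := by rw [hb0, Perm.mul_apply, swap_apply_left, hΦ2 _ v hv]
  have hb0v : b0 v = u := by rw [hb0, Perm.mul_apply, swap_apply_right, hΦ2 _ u hu]
  have hR3 : b0 * z * b0⁻¹ = z⁻¹ := by
    rw [hz, conj_c3, hb0u, hb0v, hb0, Perm.mul_apply,
      swap_apply_of_ne_of_ne (hne _ h0S).1 (hne _ h0S).2, hΦ1, show m0 0 = 0 by simp [hm0],
      c3_swap_eq_inv huv (hne _ h0S).1 (hne _ h0S).2]
  have ha1 : ∀ i, a0 (e i) = e (i + 1) := fun i => hΦ1 _ i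
  have hau : a0 u = u := hΦ2 _ u hu
  have hav : a0 v = v := hΦ2 _ v hv
  have hR4 : (z * (a0 * z * a0⁻¹)) ^ 2 = 1 := by
    rw [hz, conj_c3, hau, hav, ha1]
    exact c3_mul_sq huv (hne _ h0S).1 (hne _ h0S).2 (hne _ ⟨_, rfl⟩).1 (hne _ ⟨_, rfl⟩).2
      (e.injective.ne (by simp))
  have hsa : sign a0 = 1 := by
    have := congrArg sign hap
    rw [map_pow, map_one] at this
    rcases Int.units_eq_one_or (sign a0) with h | h
    · exact h
    · rw [h, Odd.neg_one_pow (Nat.odd_iff.2 hp)] at this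
      exact absurd this (by decide)
  have hsb : sign b0 = 1 := by
    rw [hb0, Perm.sign_mul, hΦs, hm0, sign_mulLeft_primitive hp r hr0 hr hr1, sign_swap huv]
    rfl
  have hsz : sign z = 1 := sign_c3 huv (hne _ h0S).1
  let f : Fin 3 → Perm α := ![a0, b0, y0]
  set φ := FreeGroup.lift f with hφ
  set A : FreeGroup (Fin 3) := FreeGroup.of 0 with hA
  set Bw : FreeGroup (Fin 3) := FreeGroup.of 1 with hBw
  set Yw : FreeGroup (Fin 3) := FreeGroup.of 2 with hYw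
  have φA : φ A = a0 := by simp [hφ, hA, f]
  have φB : φ Bw = b0 := by simp [hφ, hBw, f]
  have φY : φ Yw = y0 := by simp [hφ, hYw, f]
  have hπF := pi_xw φ e (a := A) (z := Yw ^ 8) (u := u) (v := v) (by rw [φA]; exact ha1)
    (by rw [φA]; exact hau) (by rw [φA]; exact hav) (by rw [map_pow, φY, hy8])
  have hsurj := carm_surj φ huv _ _ hπF
  set T : Set α := {j | j ∈ Set.range e ∧ τ j ∉ Set.range e} with hT
  obtain ⟨d, hd1, hd2, hd3, hd4⟩ := exists_reach_uv {j | j ∈ Set.range e ∧ τ j ∈ Set.range e}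
    (e 0) u v (fun h => hu h.1) (fun h => hv h.1) (hne _ h0S).1.symm (hne _ h0S).2.symm huv 1
  obtain ⟨c, hc1, hc2, hc3⟩ := exists_reach_even T (e 0) w1 (fun h => h.2 (by rwa [ht1])) h10
  obtain ⟨c', hc1', hc2', hc3'⟩ := exists_reach_even T w2 w3 (fun h => h.2 ht3) h23.symm
  have hdfix : ∀ j ∈ Set.range e, τ j ∉ Set.range e → d j = j := fun j hj hj' =>
    hd2 j (fun h => hj' h.2) (fun h => hj' (by rw [h, ht0]; exact h0S)) (hne j hj).1 (hne j hj).2
  obtain ⟨D, hD, φD⟩ := hsurj d hd1 (fun j h1 h2 h3 =>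
    hd2 j (fun h => h3 h.1) (fun h => h3 (h ▸ h0S)) h1 h2)
  obtain ⟨D', hD', φD'⟩ := hsurj (τ * d * τ⁻¹) (by simp [hd1]) (fun j h1 h2 h3 => by
    rw [hτinv, Perm.mul_apply, Perm.mul_apply, hdfix _ (hcov j h1 h2 h3) (by rwa [hττ']), hττ'])
  obtain ⟨B, hB, φB'⟩ := hsurj b0 hsb (fun j h1 h2 h3 => by
    rw [hb0, Perm.mul_apply, swap_apply_of_ne_of_ne h1 h2, hΦ2 _ j h3])
  have hcout : ∀ j, j ∉ Set.range e → c j = j := fun j h3 =>
    hc2 j (fun h => h3 h.1) (fun h => h3 (h ▸ h0S)) (fun h => h3 (h ▸ hw1))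
  have hcout' : ∀ j, j ∉ Set.range e → c' j = j := fun j h3 =>
    hc2' j (fun h => h3 h.1) (fun h => h3 (h ▸ hw2)) (fun h => h3 (h ▸ hw3))
  obtain ⟨C, hC, φC⟩ := hsurj c hc1 (fun j _ _ h3 => hcout j h3)
  obtain ⟨E, hE, φE⟩ := hsurj c' hc1' (fun j _ _ h3 => hcout' j h3)
  set HF := closure (xw e A (Yw ^ 8) '' Set.range e) with hHF
  set KF : Subgroup (FreeGroup (Fin 3)) :=
    closure {g | g ∈ HF ∨ ∃ h ∈ HF, g = Yw ^ 3 * h * (Yw ^ 3)⁻¹} with hKF
  have hKF' : alternatingGroup α ≤ KF.map φ := by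
    intro σ hσ
    refine mem_of_c3_mem _ huv Set.univ (fun i _ h4 h5 => ?_) σ hσ (fun _ _ _ h => absurd trivial h)
    by_cases hi : i ∈ Set.range e
    · exact ⟨_, subset_closure (Or.inl (subset_closure ⟨i, hi, rfl⟩)), hπF i hi⟩
    · have hi' := hcov i h4 h5 hi
      refine ⟨_, subset_closure (Or.inr ⟨_, subset_closure ⟨_, hi', rfl⟩, rfl⟩), ?_⟩
      rw [map_mul, map_mul, map_inv, hπF _ hi', map_pow, φY, hy3, conj_c3, htu, htv, hττ']
  obtain ⟨Y, φY', hY⟩ : ∃ Y : FreeGroup (Fin 3), φ Y = τ ∧ (sign τ = 1 → Y ∈ KF) := by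
    by_cases h : sign τ = 1
    · obtain ⟨Y, hY, hY'⟩ := hKF' h
      exact ⟨Y, hY', fun _ => hY⟩
    · exact ⟨Yw ^ 3, by rw [map_pow, φY, hy3], fun h' => absurd h' h⟩
  have hcc : c * (τ * c' * τ⁻¹) = (τ * c' * τ⁻¹) * c := by
    apply Perm.Disjoint.commute
    intro j
    by_cases h1 : j ∈ T ∨ j = e 0 ∨ j = w1
    · right
      rw [hτinv, Perm.mul_apply, Perm.mul_apply, hc2', hττ']
      · rintro ⟨h2, h3⟩
        rw [hττ'] at h3
        rcases h1 with h | h | h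
        · exact h3 h.1
        · exact h3 (h ▸ h0S)
        · exact h3 (h ▸ hw1)
      · intro h2
        rcases h1 with h | h | h
        · exact h.2 (h2 ▸ hw2)
        · exact h20 (by rw [← h2, h, ht0])
        · exact h12 (by rw [← h2, h, ht1])
      · intro h2
        rcases h1 with h | h | h
        · exact h.2 (h2 ▸ hw3)
        · exact h30 (by rw [← h2, h, ht0])
        · exact h13 (by rw [← h2, h, ht1])
    · left
      push Not at h1
      exact hc2 j h1.1 h1.2.1 h1.2.2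
  refine ⟨f, ?_, ?_, hsa, hsb, ?_, hy2⟩
  · let rels : List (FreeGroup (Fin 3)) :=
      [A ^ p * (Bw ^ (p - 1) * Yw ^ 6)⁻¹, Bw * A ^ s * Bw⁻¹ * (A ^ (1 - s))⁻¹,
        Bw * Yw ^ 2 * Bw⁻¹ * ((Yw ^ 2)⁻¹)⁻¹, (Yw ^ 8 * (A * Yw ^ 8 * A⁻¹)) ^ 2 * 1⁻¹,
        Yw ^ 3 * D * (Yw ^ 3)⁻¹ * (D' * B⁻¹ * Bw)⁻¹,
        C * (Yw ^ 3 * E * (Yw ^ 3)⁻¹) * ((Yw ^ 3 * E * (Yw ^ 3)⁻¹) * C)⁻¹,
        Yw ^ 3 * Y⁻¹]
    apply hasRels_of_injective f rels
    · intro w hw
      simp only [rels, List.mem_cons, List.not_mem_nil, or_false] at hw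
      rw [← hφ]
      rcases hw with rfl | rfl | rfl | rfl | rfl | rfl | rfl <;>
        simp only [map_mul, map_inv, map_pow, map_zpow, map_one, φA, φB, φY, φD, φD', φB', φC, φE,
          φY', hy2, hy3, hy6, hy8, hap, hbp, hR2, hR3, hR4, mul_inv_eq_one, mul_one]
      · simp
      · exact hcc
    · intro π hπ g hg
      set q := PresentedGroup.mk {w | w ∈ rels} with hq
      have hπq : ∀ w, π (q w) = φ w := by
        have : π.comp q = φ := by
          ext i : 1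
          rw [MonoidHom.comp_apply, hφ, FreeGroup.lift_apply_of]
          exact hπ i
        exact fun w => DFunLike.congr_fun this w
      have hrel : ∀ l r : FreeGroup (Fin 3), l * r⁻¹ ∈ rels → q l = q r :=
        fun l r h => PresentedGroup.mk_eq_mk_of_mul_inv_mem h
      have hmem : ∀ g ∈ HF, q g ∈ closure (xw e (q A) (q Yw ^ 8) '' Set.range e) := by
        intro g hg
        have := map_mem_closure_xw q e A (Yw ^ 8) _ hg
        rwa [map_pow] at this
      have r1 := hrel _ _ (show A ^ p * (Bw ^ (p - 1) * Yw ^ 6)⁻¹ ∈ rels by simp [rels])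
      have r2 := hrel _ _ (show Bw * A ^ s * Bw⁻¹ * (A ^ (1 - s))⁻¹ ∈ rels by simp only [rels]; simp)
      have r3 := hrel _ _ (show Bw * Yw ^ 2 * Bw⁻¹ * ((Yw ^ 2)⁻¹)⁻¹ ∈ rels by simp only [rels]; simp)
      have r4 := hrel _ _ (show (Yw ^ 8 * (A * Yw ^ 8 * A⁻¹)) ^ 2 * 1⁻¹ ∈ rels by
        simp only [rels]; simp)
      have r5 := hrel _ _ (show Yw ^ 3 * D * (Yw ^ 3)⁻¹ * (D' * B⁻¹ * Bw)⁻¹ ∈ rels by
        simp only [rels]; simp)
      have r6 := hrel _ _ (show C * (Yw ^ 3 * E * (Yw ^ 3)⁻¹) *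
        ((Yw ^ 3 * E * (Yw ^ 3)⁻¹) * C)⁻¹ ∈ rels by simp only [rels]; simp)
      have r7 := hrel _ _ (show Yw ^ 3 * Y⁻¹ ∈ rels by simp only [rels]; simp)
      simp only [map_mul, map_inv, map_pow, map_zpow, map_one] at r1 r2 r3 r4 r5 r6 r7
      have e3 : π (q Yw ^ 3) = τ := by rw [map_pow, hπq, φY, hy3]
      obtain ⟨N, n1, n2, n3, n4, n5, n6, n7, n8⟩ := glue_main π e huv hu hv hp r hr hr1 s hs
        (q A) (q Bw) (q Yw) (q D) (q D') (q B) (q C) (q E)
        (by rw [hπq, φA]; exact ha1) (by rw [hπq, φA]; exact hau) (by rw [hπq, φA]; exact hav)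
        (by rw [map_pow, hπq, φY, hy8]) (by rw [hπq, φB, hbp]) r1 r2 r3 r4
        (by rw [e3, htu]) (by rw [e3, htv]) (by rw [e3, ht0]) (by rw [e3]; exact hcov)
        (hmem _ hD) (hmem _ hD') (hmem _ hB) (hmem _ hC) (hmem _ hE)
        (by rw [hπq, hπq, φB', φB]) (by rw [e3, hπq, hπq, φD', φD])
        (by rw [hπq, φD]; exact hd3) (by rw [e3, hπq, φD]; exact hdfix)
        (by rw [e3, hπq, φD]; exact hd4) r5
        (by rw [hπq, φC]; exact hcout u hu) (by rw [hπq, φC]; exact hcout v hv)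
        (by rw [e3, hπq, φC]; exact hc3)
        (by rw [hπq, φE]; exact hcout' u hu) (by rw [hπq, φE]; exact hcout' v hv)
        (by rw [hπq, φE]; exact hc2' _ (fun h => h.2 (by rwa [ht0])) h20.symm h30.symm)
        w2 hw2 (by rw [e3]; exact ht2) (by rw [e3, hπq, φE]; exact hc3') r6
      rcases Int.units_eq_one_or (sign τ) with hsτ | hsτ
      · have k1 : KF ≤ N.comap q := by
          rw [hKF, closure_le]
          rintro g (hg | ⟨h, hh, rfl⟩)
          · exact n3 (hmem g hg)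
          · have := n4 _ (n3 (hmem h hh))
            simpa using this
        have k2 : q Yw ^ 3 ∈ N := r7 ▸ k1 (hY hsτ)
        have k3 : q Yw ∈ N := by
          have := N.mul_mem k2 (N.inv_mem n7)
          convert this using 1
          group
        refine n1 g (PresentedGroup.generated_by _ N ?_ g) hg
        intro j
        fin_cases j
        · exact n5
        · exact n6
        · exact k3
      · refine inj_of_index_two π N (q Yw ^ 3) ?_ n4 (by rw [e3, hsτ]) n2 n1 _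
          (PresentedGroup.closure_range_of _) ?_ g hg
        · rw [← pow_add, n8]; exact N.one_mem
        · rintro _ ⟨j, rfl⟩
          fin_cases j
          · exact Or.inl n5
          · exact Or.inl n6
          · right
            have := N.mul_mem n7 n7
            change q Yw ^ 3 * q Yw ∈ N
            convert this using 1
            group
  · refine hKF'.trans ?_
    rw [← FreeGroup.range_lift_eq_closure]
    exact map_le_range _ _
  · change sign y0 = sign τ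
    rw [hy0, Perm.sign_mul, map_pow, hsz, one_pow, mul_one]

end Cfsg.Agent.SymAlt
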